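import Mathlib
import Cfsg.Agent.Inv.FzBasic
import Cfsg.Agent.GT.PPrimeCore
import Cfsg.Agent.AP.Defs

/-! # Groups with the involution fusion pattern of `A_{4k+2}` (for S1918): definitions and the letter calculus.
Plan: `stubs/Cfsg/Agent/AQ/PLAN.md`. -/

set_option autoImplicit false
open Subgroup Equiv
open Cfsg.Agent.Inv.Fz

namespace Cfsg.Agent.AQ
open Cfsg.Agent.AP (w Y)

/-- Pairs: the two pairs of each block, and one extra pair `none`. -/
abbrev Pr (ι : Type) := Option (ι × Bool)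
/-- Points: pair, point in the pair. -/
abbrev Pt (ι : Type) := Pr ι × Bool
/-- The block of a pair. -/
def blk {ι : Type} (a : Pr ι) : Option ι := a.map Prod.fst

@[simp] theorem blk_some {ι : Type} (j : ι) (c : Bool) : blk (some (j, c)) = some j := rfl
@[simp] theorem blk_none {ι : Type} : blk (none : Pr ι) = none := rfl

section Letters
variable {ι : Type}

/-- The product of the transpositions on the pairs in `S`. -/
def tau (S : Pr ι → Bool) : Perm (Pt ι) :=
  Function.Involutive.toPerm (fun q => (q.1, xor q.2 (S q.1))) (by rintro ⟨a, e⟩; simp)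

/-- The elements of the product of the regular four-groups of the blocks. -/
def ee (f : ι → Bool × Bool) : Perm (Pt ι) :=
  Function.Involutive.toPerm (fun q => match q with
      | (some (j, c), e) => (some (j, xor c (f j).1), xor e (f j).2)
      | (none, e) => (none, e))
    (by rintro ⟨_ | ⟨j, c⟩, e⟩ <;> simp)

@[simp] theorem tau_apply (S : Pr ι → Bool) (a : Pr ι) (e : Bool) : tau S (a, e) = (a, xor e (S a)) := rfl

@[simp] theorem ee_apply (f : ι → Bool × Bool) (j : ι) (c e : Bool) :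
    ee f (some (j, c), e) = (some (j, xor c (f j).1), xor e (f j).2) := rfl

@[simp] theorem ee_none (f : ι → Bool × Bool) (e : Bool) : ee f (none, e) = (none, e) := rfl

theorem tau_mul (S S' : Pr ι → Bool) : tau S * tau S' = tau fun a => xor (S a) (S' a) := by
  ext ⟨a, e⟩ : 1
  simp only [Perm.mul_apply, tau_apply]
  cases e <;> cases S a <;> cases S' a <;> rfl

theorem tau_false : tau (fun _ : Pr ι => false) = 1 := by
  ext ⟨a, e⟩ : 1
  simp

theorem tau_sq (S : Pr ι → Bool) : tau S * tau S = 1 := by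
  rw [tau_mul, ← tau_false]; congr 1; ext a; simp

theorem tau_comm (S S' : Pr ι → Bool) : tau S * tau S' = tau S' * tau S := by
  rw [tau_mul, tau_mul]; congr 1; ext a; exact Bool.xor_comm _ _

theorem ee_mul (f g : ι → Bool × Bool) :
    ee f * ee g = ee fun j => (xor (f j).1 (g j).1, xor (f j).2 (g j).2) := by
  ext ⟨_ | ⟨j, c⟩, e⟩ : 1
  · rfl
  simp only [Perm.mul_apply, ee_apply]
  cases c <;> cases e <;> cases (f j).1 <;> cases (f j).2 <;> cases (g j).1 <;> cases (g j).2 <;> rfl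

theorem ee_zero : ee (fun _ : ι => (false, false)) = 1 := by
  ext ⟨_ | ⟨j, c⟩, e⟩ : 1 <;> simp

theorem ee_sq (f : ι → Bool × Bool) : ee f * ee f = 1 := by
  rw [ee_mul, ← ee_zero]; congr 1; ext a <;> simp

theorem ee_comm (f g : ι → Bool × Bool) : ee f * ee g = ee g * ee f := by
  rw [ee_mul, ee_mul]; congr 1; ext a <;> exact Bool.xor_comm _ _

theorem ee_inj {f g : ι → Bool × Bool} (h : ee f = ee g) : f = g := by
  funext j
  have := congrArg (fun x : Perm (Pt ι) => x (some (j, false), false)) h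
  simp only [ee_apply, Bool.false_xor, Prod.mk.injEq, true_and, Option.some.injEq] at this
  exact Prod.ext this.1 this.2

/-- The elementary abelian group of order `4 ^ k`. -/
def E0 (ι : Type) : Subgroup (Perm (Pt ι)) where
  carrier := Set.range ee
  one_mem' := ⟨_, ee_zero⟩
  mul_mem' := by rintro _ _ ⟨f, rfl⟩ ⟨g, rfl⟩; exact ⟨_, (ee_mul f g).symm⟩
  inv_mem' := by rintro _ ⟨f, rfl⟩; exact ⟨f, eq_inv_of_mul_eq_one_left (ee_sq f)⟩

theorem mem_E0 {x : Perm (Pt ι)} : x ∈ E0 ι ↔ ∃ f, ee f = x := Iff.rfl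

variable [DecidableEq ι]

/-- The transposition on the pair `a`. -/
def t1 (a : Pr ι) : Perm (Pt ι) := tau fun c => decide (c = a)
/-- The double transposition on the pairs `a`, `b`. -/
def tt (a b : Pr ι) : Perm (Pt ι) := t1 a * t1 b
/-- An element of the four-group of block `j`. -/
def sg (j : ι) (v : Bool × Bool) : Perm (Pt ι) := ee fun l => if l = j then v else (false, false)
/-- The swap of the two pairs of block `j`. -/
def mx (j : ι) : Perm (Pt ι) := sg j (true, false)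
/-- The product of the two transpositions of block `j`. -/
def md (j : ι) : Perm (Pt ι) := sg j (false, true)

theorem t1_eq_swap (a : Pr ι) : t1 a = swap (a, false) (a, true) := by
  ext ⟨b, e⟩ : 1
  by_cases h : b = a
  · subst h; cases e <;> simp [t1]
  · rw [swap_apply_of_ne_of_ne (by simp [h]) (by simp [h])]; simp [t1, h]

theorem t1_sq (a : Pr ι) : t1 a * t1 a = 1 := tau_sq _
theorem t1_comm (a b : Pr ι) : t1 a * t1 b = t1 b * t1 a := tau_comm _ _
theorem tt_eq (a b : Pr ι) : tt a b = tau fun c => xor (decide (c = a)) (decide (c = b)) := tau_mul _ _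
theorem tt_sq (a b : Pr ι) : tt a b * tt a b = 1 := by rw [tt_eq, tau_sq]
theorem tt_symm (a b : Pr ι) : tt a b = tt b a := t1_comm a b
theorem tt_self (a : Pr ι) : tt a a = 1 := t1_sq a
theorem tt_comm (a b c d : Pr ι) : tt a b * tt c d = tt c d * tt a b := by rw [tt_eq, tt_eq, tau_comm]
theorem tt_mul_tt (a b c : Pr ι) : tt a b * tt b c = tt a c := by
  rw [tt, tt, tt, mul_assoc, ← mul_assoc (t1 b), t1_sq, one_mul]

theorem md_eq (j : ι) : md j = tt (some (j, false)) (some (j, true)) := by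
  ext ⟨_ | ⟨l, c⟩, e⟩ : 1
  · simp [md, sg, tt_eq]
  by_cases h : l = j
  · subst h; cases c <;> simp [md, sg, tt_eq]
  · simp [md, sg, tt_eq, h]

theorem mx_eq_swap (j : ι) : mx j =
    swap (some (j, false), false) (some (j, true), false) * swap (some (j, false), true) (some (j, true), true) := by
  ext ⟨_ | ⟨l, c⟩, e⟩ : 1
  · simp [mx, sg, swap_apply_def]
  by_cases h : l = j
  · subst h; cases c <;> cases e <;> simp [mx, sg, swap_apply_def]
  · simp [mx, sg, h, swap_apply_def]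

theorem sg_mul (j : ι) (u v : Bool × Bool) : sg j u * sg j v = sg j (xor u.1 v.1, xor u.2 v.2) := by
  rw [sg, sg, sg, ee_mul]; congr 1; ext l <;> by_cases h : l = j <;> simp [h]

theorem sg_zero (j : ι) : sg j (false, false) = 1 := by
  rw [sg, ← ee_zero]; congr 1; ext l <;> simp

theorem sg_sq (j : ι) (v : Bool × Bool) : sg j v * sg j v = 1 := ee_sq _
theorem mx_sq (j : ι) : mx j * mx j = 1 := ee_sq _
theorem md_sq (j : ι) : md j * md j = 1 := ee_sq _
theorem mx_mul_md (j : ι) : mx j * md j = sg j (true, true) := sg_mul j _ _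

/-- Conjugating a transposition by `ee f`. -/
theorem ee_conj_t1 (f : ι → Bool × Bool) (j : ι) (c : Bool) :
    ee f * t1 (some (j, c)) * (ee f)⁻¹ = t1 (some (j, xor c (f j).1)) := by
  rw [mul_inv_eq_iff_eq_mul]
  ext ⟨_ | ⟨l, c'⟩, e⟩ : 1
  · simp [t1]
  simp only [Perm.mul_apply, t1, tau_apply, ee_apply, Prod.mk.injEq, true_and]
  by_cases h : l = j
  · subst h; cases c <;> cases c' <;> cases e <;> cases (f l).1 <;> cases (f l).2 <;> simp
  · simp [h]

theorem ee_conj_t1_none (f : ι → Bool × Bool) : ee f * t1 none * (ee f)⁻¹ = t1 none := by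
  rw [mul_inv_eq_iff_eq_mul]
  ext ⟨_ | ⟨l, c'⟩, e⟩ : 1 <;> simp [t1]

/-- The action of `ee f` on the pairs. -/
def mv (f : ι → Bool × Bool) (a : Pr ι) : Pr ι := a.map fun p => (p.1, xor p.2 (f p.1).1)

omit [DecidableEq ι] in
@[simp] theorem mv_some (f : ι → Bool × Bool) (j : ι) (c : Bool) : mv f (some (j, c)) = some (j, xor c (f j).1) := rfl
omit [DecidableEq ι] in
@[simp] theorem mv_none (f : ι → Bool × Bool) : mv f none = none := rfl

theorem ee_conj_t1' (f : ι → Bool × Bool) (a : Pr ι) : ee f * t1 a * (ee f)⁻¹ = t1 (mv f a) := by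
  rcases a with _ | ⟨j, c⟩
  exacts [ee_conj_t1_none f, ee_conj_t1 f j c]

theorem ee_conj_tt (f : ι → Bool × Bool) (a b : Pr ι) : ee f * tt a b * (ee f)⁻¹ = tt (mv f a) (mv f b) := by
  rw [tt, tt, ← ee_conj_t1', ← ee_conj_t1']; group

/-- `tau S` acts on `E0` by transvections. -/
theorem tau_conj_ee (S : Pr ι → Bool) (f : ι → Bool × Bool) : tau S * ee f * (tau S)⁻¹ =
    ee fun j => ((f j).1, xor (f j).2 ((f j).1 && xor (S (some (j, false))) (S (some (j, true))))) := by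
  rw [mul_inv_eq_iff_eq_mul]
  ext ⟨_ | ⟨l, c⟩, e⟩ : 1
  · simp
  simp only [Perm.mul_apply, tau_apply, ee_apply, Prod.mk.injEq, true_and]
  cases c <;> cases e <;> cases (f l).1 <;> cases (f l).2 <;> cases h : S (some (l, false)) <;>
    cases h' : S (some (l, true)) <;> simp [h, h']

/-- The regular four-group of block `j`. -/
def V0 (j : ι) : Subgroup (Perm (Pt ι)) where
  carrier := Set.range (sg j)
  one_mem' := ⟨_, sg_zero j⟩
  mul_mem' := by rintro _ _ ⟨f, rfl⟩ ⟨g, rfl⟩; exact ⟨_, (sg_mul j f g).symm⟩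
  inv_mem' := by rintro _ ⟨f, rfl⟩; exact ⟨f, eq_inv_of_mul_eq_one_left (sg_sq j f)⟩

theorem mem_V0 {j : ι} {x : Perm (Pt ι)} : x ∈ V0 j ↔ ∃ v, sg j v = x := Iff.rfl

theorem V0_le_E0 (j : ι) : V0 j ≤ E0 ι := by rintro _ ⟨v, rfl⟩; exact ⟨_, rfl⟩

theorem mem_V0' {j : ι} {x : Perm (Pt ι)} : x ∈ V0 j ↔ x = 1 ∨ x = mx j ∨ x = md j ∨ x = mx j * md j := by
  refine ⟨?_, ?_⟩
  · rintro ⟨⟨_ | _, _ | _⟩, rfl⟩
    exacts [Or.inl (sg_zero j), Or.inr (Or.inr (Or.inl rfl)), Or.inr (Or.inl rfl),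
      Or.inr (Or.inr (Or.inr (mx_mul_md j).symm))]
  · rintro (rfl | rfl | rfl | rfl)
    exacts [one_mem _, ⟨_, rfl⟩, ⟨_, rfl⟩, ⟨_, (mx_mul_md j).symm⟩]

variable (ι) in
/-- The even part of the product of the dihedral groups of the blocks. -/
def J0 : Subgroup (Perm (Pt ι)) := closure ({x | ∃ a b, x = tt a b} ∪ Set.range mx)

theorem tt_mem_J0 (a b : Pr ι) : tt a b ∈ J0 ι := subset_closure (Or.inl ⟨a, b, rfl⟩)
theorem mx_mem_J0 (j : ι) : mx j ∈ J0 ι := subset_closure (Or.inr ⟨j, rfl⟩)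
theorem md_mem_J0 (j : ι) : md j ∈ J0 ι := md_eq j ▸ tt_mem_J0 _ _
theorem V0_le_J0 (j : ι) : V0 j ≤ J0 ι := fun x hx => by
  rcases mem_V0'.1 hx with rfl | rfl | rfl | rfl
  exacts [one_mem _, mx_mem_J0 j, md_mem_J0 j, mul_mem (mx_mem_J0 j) (md_mem_J0 j)]

/-- The pairs outside block `i`. -/
def upP (i : ι) (a : Pr {j // j ≠ i}) : Pr ι := a.map fun p => (p.1.1, p.2)

omit [DecidableEq ι] in
@[simp] theorem upP_some (i : ι) (j : {j // j ≠ i}) (c : Bool) : upP i (some (j, c)) = some (j.1, c) := rfl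
omit [DecidableEq ι] in
@[simp] theorem upP_none (i : ι) : upP i none = none := rfl

omit [DecidableEq ι] in
theorem upP_inj (i : ι) : Function.Injective (upP i) := by
  rintro (_ | ⟨a, b⟩) (_ | ⟨a', b'⟩) h
  · rfl
  · simp at h
  · simp at h
  · simp only [upP_some, Option.some.injEq, Prod.mk.injEq] at h
    rw [Subtype.ext h.1, h.2]

omit [DecidableEq ι] in
theorem blk_upP_ne (i : ι) (a : Pr {j // j ≠ i}) : blk (upP i a) ≠ some i := by
  rcases a with _ | ⟨j, c⟩
  · simp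
  · simpa using j.2

omit [DecidableEq ι] in
theorem exists_upP {i : ι} {a : Pr ι} (h : blk a ≠ some i) : ∃ a', upP i a' = a := by
  rcases a with _ | ⟨j, c⟩
  · exact ⟨none, rfl⟩
  · exact ⟨some (⟨j, by simpa using h⟩, c), rfl⟩

/-- The points outside block `i`. -/
def up (i : ι) : Pt {j // j ≠ i} ↪ Pt ι :=
  ⟨fun q => (upP i q.1, q.2), by
    rintro ⟨a, c⟩ ⟨a', c'⟩ h
    simp only [Prod.mk.injEq] at h
    rw [upP_inj i h.1, h.2]⟩

omit [DecidableEq ι] in
@[simp] theorem up_apply (i : ι) (a : Pr {j // j ≠ i}) (e : Bool) : up i (a, e) = (upP i a, e) := rfl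

variable [Fintype ι]

theorem E0_le_J0 : E0 ι ≤ J0 ι := by
  rintro _ ⟨f, rfl⟩
  have key : ∀ s : Finset ι, ee (fun j => if j ∈ s then f j else (false, false)) ∈ J0 ι := by
    intro s
    induction s using Finset.induction_on with
    | empty => simp [ee_zero, one_mem]
    | insert j s hj ih =>
      have := mul_mem (V0_le_J0 j ⟨f j, rfl⟩) ih
      rw [sg, ee_mul] at this
      convert this using 2
      ext l <;> by_cases h : l = j <;> simp [h, hj]
  simpa using key Finset.univ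

theorem w_tau (S : Pr ι → Bool) : w (tau S) = 2 * (Finset.univ.filter fun a => S a = true).card := by
  have : (tau S).support = (Finset.univ.filter fun a => S a = true) ×ˢ Finset.univ := by
    ext ⟨a, e⟩
    cases h : S a <;> cases e <;> simp [Perm.mem_support, h]
  rw [w, this, Finset.card_product, Finset.card_univ, Fintype.card_bool, mul_comm]

theorem w_ee (f : ι → Bool × Bool) :
    w (ee f) = 4 * (Finset.univ.filter fun j => f j ≠ (false, false)).card := by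
  have : (ee f).support = (((Finset.univ.filter fun j => f j ≠ (false, false)) ×ˢ Finset.univ).map
      Function.Embedding.some) ×ˢ Finset.univ := by
    ext ⟨_ | ⟨j, c⟩, e⟩
    · simp [Perm.mem_support]
    rcases h : f j with ⟨_ | _, _ | _⟩ <;> cases c <;> cases e <;> simp [Perm.mem_support, h]
  rw [w, this, Finset.card_product, Finset.card_map, Finset.card_product, Finset.card_univ, Fintype.card_bool]
  ring

theorem w_sg (j : ι) {v : Bool × Bool} (hv : v ≠ (false, false)) : w (sg j v) = 4 := by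
  rw [sg, w_ee, show (Finset.univ.filter fun l => (if l = j then v else (false, false)) ≠ (false, false)) = {j} by
    ext l; by_cases h : l = j <;> simp [h, hv], Finset.card_singleton]

theorem w_tt {a b : Pr ι} (h : a ≠ b) : w (tt a b) = 4 := by
  rw [tt_eq, w_tau, show (Finset.univ.filter fun c => xor (decide (c = a)) (decide (c = b)) = true) = {a, b} by
    ext c; by_cases h1 : c = a <;> by_cases h2 : c = b <;> simp_all, Finset.card_pair h]

theorem w_tt_mul {a b c d : Pr ι} (hab : a ≠ b) (hac : a ≠ c) (had : a ≠ d) (hbc : b ≠ c) (hbd : b ≠ d)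
    (hcd : c ≠ d) : w (tt a b * tt c d) = 8 := by
  rw [tt_eq, tt_eq, tau_mul, w_tau, show (Finset.univ.filter fun x => xor (xor (decide (x = a)) (decide (x = b)))
    (xor (decide (x = c)) (decide (x = d))) = true) = {a, b, c, d} by
      ext x
      by_cases h1 : x = a <;> by_cases h2 : x = b <;> by_cases h3 : x = c <;> by_cases h4 : x = d <;> simp_all,
    Finset.card_eq_four.2 ⟨a, b, c, d, hab, hac, had, hbc, hbd, hcd, rfl⟩]

theorem card_Pt : Fintype.card (Pt ι) = 4 * Fintype.card ι + 2 := by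
  simp only [Fintype.card_prod, Fintype.card_bool, Fintype.card_option]; ring

/-- A `2`-group of even permutations containing the letters. -/
structure TM (T : Subgroup (Perm (Pt ι))) : Prop where
  two : IsPGroup 2 T
  J : J0 ι ≤ T
  alt : T ≤ alternatingGroup (Pt ι)

end Letters

/-- `G` has the involution fusion pattern of the alternating group on `Pt ι`: `F` maps the Sylow 2-subgroup `T` of the
alternating group isomorphically onto the Sylow 2-subgroup `S` of `G`. -/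
structure Pat (G : Type*) [Group G] (ι : Type) [Fintype ι] [DecidableEq ι] where
  T : Subgroup (Perm (Pt ι))
  S : Subgroup G
  F : Perm (Pt ι) → G
  J : J0 ι ≤ T
  sylA : IsSylIn 2 T (alternatingGroup (Pt ι))
  sylG : IsSylIn 2 S ⊤
  mul : ∀ x ∈ T, ∀ y ∈ T, F (x * y) = F x * F y
  inj : ∀ x ∈ T, F x = 1 → x = 1
  mem : ∀ g, g ∈ S ↔ ∃ x ∈ T, F x = g
  fus : ∀ x ∈ T, ∀ y ∈ T, x * x = 1 → y * y = 1 → (IsConj (F x) (F y) ↔ w x = w y)

namespace Pat
variable {G : Type*} [Group G] {ι : Type} [Fintype ι] [DecidableEq ι] (P : Pat G ι)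

theorem tm : TM P.T := ⟨P.sylA.isPGroup, P.J, P.sylA.le⟩

/-- `F` as a homomorphism. -/
def φ : P.T →* G := MonoidHom.mk' (fun x => P.F x) fun x y => P.mul _ x.2 _ y.2

theorem F_one : P.F 1 = 1 := P.φ.map_one
theorem F_inv {x : Perm (Pt ι)} (hx : x ∈ P.T) : P.F x⁻¹ = (P.F x)⁻¹ := P.φ.map_inv ⟨x, hx⟩
theorem F_conj {x y : Perm (Pt ι)} (hx : x ∈ P.T) (hy : y ∈ P.T) : P.F (x * y * x⁻¹) = P.F x * P.F y * (P.F x)⁻¹ := by
  rw [P.mul _ (mul_mem hx hy) _ (inv_mem hx), P.mul _ hx _ hy, P.F_inv hx]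
theorem F_inj {x y : Perm (Pt ι)} (hx : x ∈ P.T) (hy : y ∈ P.T) (h : P.F x = P.F y) : x = y :=
  mul_inv_eq_one.1 (P.inj _ (mul_mem hx (inv_mem hy)) (by rw [P.mul _ hx _ (inv_mem hy), P.F_inv hy, h, mul_inv_cancel]))
theorem F_mem {x : Perm (Pt ι)} (hx : x ∈ P.T) : P.F x ∈ P.S := (P.mem _).2 ⟨x, hx, rfl⟩
theorem F_sq {x : Perm (Pt ι)} (hx : x ∈ P.T) : P.F x * P.F x = 1 ↔ x * x = 1 :=
  ⟨fun h => P.inj _ (mul_mem hx hx) (by rw [P.mul _ hx _ hx, h]), fun h => by rw [← P.mul _ hx _ hx, h, P.F_one]⟩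
theorem F_comm {x y : Perm (Pt ι)} (hx : x ∈ P.T) (hy : y ∈ P.T) :
    P.F x * P.F y = P.F y * P.F x ↔ x * y = y * x := by
  rw [← P.mul _ hx _ hy, ← P.mul _ hy _ hx]
  exact ⟨P.F_inj (mul_mem hx hy) (mul_mem hy hx), fun h => by rw [h]⟩

theorem ee_mem (f : ι → Bool × Bool) : ee f ∈ P.T := P.J (E0_le_J0 ⟨f, rfl⟩)
theorem sg_mem (j : ι) (v : Bool × Bool) : sg j v ∈ P.T := P.ee_mem _
theorem mx_mem (j : ι) : mx j ∈ P.T := P.sg_mem j _
theorem md_mem (j : ι) : md j ∈ P.T := P.sg_mem j _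
theorem tt_mem (a b : Pr ι) : tt a b ∈ P.T := P.J (tt_mem_J0 a b)

/-- The image of a subgroup of `T`. -/
def im (H : Subgroup (Perm (Pt ι))) : Subgroup G := (H.subgroupOf P.T).map P.φ

theorem mem_im {H : Subgroup (Perm (Pt ι))} (hH : H ≤ P.T) {g : G} : g ∈ P.im H ↔ ∃ x ∈ H, P.F x = g :=
  ⟨by rintro ⟨x, hx, rfl⟩; exact ⟨x, hx, rfl⟩, by rintro ⟨x, hx, rfl⟩; exact ⟨⟨x, hH hx⟩, hx, rfl⟩⟩

/-- The letters in `G`. -/
abbrev x (j : ι) : G := P.F (mx j)
abbrev d (j : ι) : G := P.F (md j)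
abbrev t (a b : Pr ι) : G := P.F (tt a b)
/-- The four-group of block `j`. -/
def V (j : ι) : Subgroup G := P.im (V0 j)
/-- The product of the `V j`. -/
def E : Subgroup G := P.im (E0 ι)

theorem mem_V {j : ι} {g : G} : g ∈ P.V j ↔ ∃ v, P.F (sg j v) = g := by
  rw [V, P.mem_im ((V0_le_J0 j).trans P.J)]
  exact ⟨by rintro ⟨_, ⟨v, rfl⟩, h⟩; exact ⟨v, h⟩, by rintro ⟨v, h⟩; exact ⟨_, ⟨v, rfl⟩, h⟩⟩

theorem mem_V' {j : ι} {g : G} : g ∈ P.V j ↔ g = 1 ∨ g = P.x j ∨ g = P.d j ∨ g = P.x j * P.d j := by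
  rw [V, P.mem_im ((V0_le_J0 j).trans P.J), ← P.mul _ (P.mx_mem j) _ (P.md_mem j), ← P.F_one]
  refine ⟨?_, ?_⟩
  · rintro ⟨x, hx, rfl⟩
    rcases mem_V0'.1 hx with rfl | rfl | rfl | rfl <;> simp
  · rintro (rfl | rfl | rfl | rfl) <;> exact ⟨_, mem_V0'.2 (by simp), rfl⟩

theorem mem_E {g : G} : g ∈ P.E ↔ ∃ f, P.F (ee f) = g := by
  rw [E, P.mem_im (E0_le_J0.trans P.J)]
  exact ⟨by rintro ⟨_, ⟨v, rfl⟩, h⟩; exact ⟨v, h⟩, by rintro ⟨v, h⟩; exact ⟨_, ⟨v, rfl⟩, h⟩⟩

theorem V_le_E (j : ι) : P.V j ≤ P.E := fun _ hg => by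
  obtain ⟨v, rfl⟩ := P.mem_V.1 hg
  exact P.mem_E.2 ⟨_, rfl⟩

theorem E_le_S : P.E ≤ P.S := fun _ hg => by
  obtain ⟨v, rfl⟩ := P.mem_E.1 hg
  exact P.F_mem (P.ee_mem v)

theorem E_sq {g : G} (hg : g ∈ P.E) : g * g = 1 := by
  obtain ⟨v, rfl⟩ := P.mem_E.1 hg
  exact (P.F_sq (P.ee_mem v)).2 (ee_sq v)

theorem E_comm {g h : G} (hg : g ∈ P.E) (hh : h ∈ P.E) : g * h = h * g := by
  obtain ⟨v, rfl⟩ := P.mem_E.1 hg
  obtain ⟨u, rfl⟩ := P.mem_E.1 hh
  exact (P.F_comm (P.ee_mem v) (P.ee_mem u)).2 (ee_comm v u)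

open Classical in
/-- The weight of an involution of `G`. -/
noncomputable def wt (g : G) : ℕ :=
  if h : ∃ x ∈ P.T, x * x = 1 ∧ IsConj (P.F x) g then w h.choose else 0

theorem wt_eq {g : G} {y : Perm (Pt ι)} (hy : y ∈ P.T) (h2 : y * y = 1) (h : IsConj (P.F y) g) : P.wt g = w y := by
  have h0 : ∃ x ∈ P.T, x * x = 1 ∧ IsConj (P.F x) g := ⟨y, hy, h2, h⟩
  rw [wt, dif_pos h0]
  exact (P.fus _ h0.choose_spec.1 _ hy h0.choose_spec.2.1 h2).1 (h0.choose_spec.2.2.trans h.symm)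

theorem wt_F {y : Perm (Pt ι)} (hy : y ∈ P.T) (h2 : y * y = 1) : P.wt (P.F y) = w y := P.wt_eq hy h2 (IsConj.refl _)

theorem wt_of_isConj {g h : G} (c : IsConj g h) : P.wt g = P.wt h := by
  by_cases h0 : ∃ x ∈ P.T, x * x = 1 ∧ IsConj (P.F x) g
  · obtain ⟨x, hx, h2, e⟩ := h0
    rw [P.wt_eq hx h2 e, P.wt_eq hx h2 (e.trans c)]
  · rw [wt, wt, dif_neg h0, dif_neg fun ⟨x, hx, h2, e⟩ => h0 ⟨x, hx, h2, e.trans c.symm⟩]

theorem wt_conj (g h : G) : P.wt (g * h * g⁻¹) = P.wt h := (P.wt_of_isConj (isConj_iff.2 ⟨g, rfl⟩)).symm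

variable [Finite G]

/-- Every `2`-subgroup is conjugate into the model. -/
theorem exists_cj {R : Subgroup G} (hR : IsPGroup 2 R) : ∃ g : G, ∀ r ∈ R, ∃ y ∈ P.T, P.F y = g * r * g⁻¹ := by
  obtain ⟨g, -, h⟩ := P.sylG.exists_cj_le hR le_top
  exact ⟨g, fun r hr => (P.mem _).1 (cj_le_iff.1 h r hr)⟩

theorem exists_rep {g : G} (h2 : g * g = 1) : ∃ y ∈ P.T, y * y = 1 ∧ IsConj (P.F y) g := by
  have hR : IsPGroup 2 (zpowers g) := by
    rintro ⟨_, n, rfl⟩
    refine ⟨1, Subtype.ext ?_⟩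
    simp only [pow_one, SubgroupClass.coe_pow, OneMemClass.coe_one]
    rw [← zpow_natCast, ← zpow_mul, mul_comm, zpow_mul, zpow_natCast, pow_two, h2, one_zpow]
  obtain ⟨k, h⟩ := P.exists_cj hR
  obtain ⟨y, hy, e⟩ := h g (mem_zpowers g)
  refine ⟨y, hy, (P.F_sq hy).1 ?_, (isConj_iff.2 ⟨k, e.symm⟩).symm⟩
  rw [e, show k * g * k⁻¹ * (k * g * k⁻¹) = k * (g * g) * k⁻¹ by group, h2, mul_one, mul_inv_cancel]

theorem isConj_of_wt {g h : G} (g2 : g * g = 1) (h2 : h * h = 1) (e : P.wt g = P.wt h) : IsConj g h := by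
  obtain ⟨x, hx, x2, ex⟩ := P.exists_rep g2
  obtain ⟨y, hy, y2, ey⟩ := P.exists_rep h2
  rw [P.wt_eq hx x2 ex, P.wt_eq hy y2 ey] at e
  exact ex.symm.trans (((P.fus _ hx _ hy x2 y2).2 e).trans ey)

omit [Finite G] in
theorem wt_one : P.wt 1 = 0 := by
  rw [← P.F_one, P.wt_F (one_mem _) (mul_one 1)]; simp [w]

theorem eq_one_of_wt {g : G} (g2 : g * g = 1) (e : P.wt g = 0) : g = 1 :=
  isConj_one_left.1 (P.isConj_of_wt g2 (mul_one 1) (e.trans P.wt_one.symm))

omit [Finite G]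

/-- The conjugates of the four-groups `V j`. -/
def IsV (U : Subgroup G) : Prop := ∃ g j, U = cj g (P.V j)

/-- The block `i` is extremal. -/
structure Ext (i : ι) : Prop where
  sylV : IsSylIn 2 (P.S ⊓ centralizer (P.V i : Set G)) (centralizer (P.V i : Set G))
  sylD : IsSylIn 2 (P.S ⊓ centralizer {P.d i}) (centralizer {P.d i})
  sylM : IsSylIn 2 (P.T ⊓ centralizer (V0 i : Set (Perm (Pt ι))))
    (alternatingGroup (Pt ι) ⊓ centralizer (V0 i : Set (Perm (Pt ι))))

/-- The conclusion: `G` maps onto an alternating group with kernel of odd order, compatibly with the letters. -/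
def Concl : Prop :=
  ∃ (γ : Type) (_ : Fintype γ) (_ : DecidableEq γ) (e : Pt ι ↪ γ) (π : G →* Perm γ),
    Fintype.card γ ≤ Fintype.card (Pt ι) + 1 ∧ π.range = alternatingGroup γ ∧ Odd (Nat.card π.ker) ∧
    ∀ y ∈ J0 ι, π (P.F y) = y.viaEmbedding e

/-- The structure of `C(V i) = V i × K` given by the induction hypothesis. -/
structure Cmp (i : ι) (γ : Type) [Fintype γ] [DecidableEq γ] where
  e : Pt {j // j ≠ i} ↪ γ
  K : Subgroup G
  π : K →* Perm γ
  card : Fintype.card γ ≤ Fintype.card (Pt {j // j ≠ i}) + 1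
  le : K ≤ centralizer (P.V i : Set G)
  inf : K ⊓ P.V i = ⊥
  dec : ∀ g ∈ centralizer (P.V i : Set G), ∃ v ∈ P.V i, ∃ k ∈ K, g = v * k
  range : π.range = alternatingGroup γ
  ker : Odd (Nat.card π.ker)
  compat : ∀ y ∈ J0 {j // j ≠ i}, ∃ h : P.F (y.viaEmbedding (up i)) ∈ K, π ⟨_, h⟩ = y.viaEmbedding e

end Pat

end Cfsg.Agent.AQ
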