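import Mathlib
import Cfsg.Agent.AQ.Defs
import Cfsg.Agent.AP.Kit
import Cfsg.Agent.AP.TFB

/-! Small facts on the letters in `G`. -/

set_option autoImplicit false
open Subgroup Equiv
open Cfsg.Agent.Inv.Fz

namespace Cfsg.Agent.AQ
open Cfsg.Agent.AP (w Y odd_Y cj_Y cj_Y_le via_via via_swap via_mul via_inj w_via via_mem_alt four_dvd_w conj_of_w)

namespace Pat
variable {G : Type*} [Group G] {ι : Type} [Fintype ι] [DecidableEq ι] (P : Pat G ι)

theorem t_mul (a b c : Pr ι) : P.t a b * P.t b c = P.t a c := by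
  rw [← P.mul _ (P.tt_mem a b) _ (P.tt_mem b c), tt_mul_tt]

theorem t_symm (a b : Pr ι) : P.t a b = P.t b a := congrArg P.F (tt_symm a b)

theorem t_sq (a b : Pr ι) : P.t a b * P.t a b = 1 := (P.F_sq (P.tt_mem a b)).2 (tt_sq a b)

theorem t_comm (a b c d : Pr ι) : P.t a b * P.t c d = P.t c d * P.t a b :=
  (P.F_comm (P.tt_mem a b) (P.tt_mem c d)).2 (tt_comm a b c d)

theorem wt_t {a b : Pr ι} (h : a ≠ b) : P.wt (P.t a b) = 4 := by
  rw [P.wt_F (P.tt_mem a b) (tt_sq a b), w_tt h]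

theorem d_eq (j : ι) : P.d j = P.t (some (j, false)) (some (j, true)) := congrArg P.F (md_eq j)

theorem isV_V (j : ι) : P.IsV (P.V j) := ⟨1, j, (cj_one _).symm⟩

theorem IsV.cj {P : Pat G ι} {U : Subgroup G} (h : P.IsV U) (g : G) : P.IsV (cj g U) := by
  obtain ⟨k, j, rfl⟩ := h
  exact ⟨g * k, j, cj_cj _ _ _⟩

theorem x_mem_V (j : ι) : P.x j ∈ P.V j := P.mem_V'.2 (by simp)
theorem d_mem_V (j : ι) : P.d j ∈ P.V j := P.mem_V'.2 (by simp)

theorem t_ne_one {a b : Pr ι} (h : a ≠ b) : P.t a b ≠ 1 := fun e => by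
  have := P.wt_t h
  rw [e, P.wt_one] at this
  exact absurd this (by decide)

theorem d_ne_one (j : ι) : P.d j ≠ 1 := P.d_eq j ▸ P.t_ne_one (by simp)

theorem x_conj_t (i : ι) (c : Bool) {b : Pr ι} (h : blk b ≠ some i) :
    P.x i * P.t (some (i, c)) b * (P.x i)⁻¹ = P.t (some (i, !c)) b := by
  rw [← P.F_conj (P.mx_mem i) (P.tt_mem _ _), mx, sg, ee_conj_tt]
  rcases b with _ | ⟨l, e⟩
  · simp
  · simp [show l ≠ i by simpa using h]

theorem t_conj_x (i : ι) (c : Bool) {b : Pr ι} (h : blk b ≠ some i) :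
    P.t (some (i, c)) b * P.x i * (P.t (some (i, c)) b)⁻¹ = P.x i * P.d i := by
  have h1 := P.x_conj_t i c h
  have h2 : P.t (some (i, c)) b * P.t (some (i, !c)) b = P.d i := by
    rw [P.t_symm (some (i, !c)), P.t_mul, P.d_eq]
    cases c
    exacts [rfl, P.t_symm _ _]
  have h3 := P.E_sq (P.V_le_E i (P.x_mem_V i))
  have h4 := P.E_comm (P.V_le_E i (P.x_mem_V i)) (P.V_le_E i (P.d_mem_V i))
  rw [h4, ← h2, ← h1, inv_eq_of_mul_eq_one_left (P.t_sq _ _), inv_eq_of_mul_eq_one_left h3, mul_assoc (P.t _ _),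
    mul_assoc (P.t _ _), mul_assoc _ (P.x i), h3, mul_one]

theorem wt_sg (j : ι) {v : Bool × Bool} (hv : v ≠ (false, false)) : P.wt (P.F (sg j v)) = 4 := by
  rw [P.wt_F (P.sg_mem j v) (sg_sq j v), w_sg j hv]

theorem wt_d (j : ι) : P.wt (P.d j) = 4 := P.wt_sg j (by simp)
theorem wt_x (j : ι) : P.wt (P.x j) = 4 := P.wt_sg j (by simp)
theorem wt_ee (f : ι → Bool × Bool) : P.wt (P.F (ee f)) = w (ee f) := P.wt_F (P.ee_mem f) (ee_sq f)
theorem F_ee_mul (f g : ι → Bool × Bool) :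
    P.F (ee f) * P.F (ee g) = P.F (ee fun j => (xor (f j).1 (g j).1, xor (f j).2 (g j).2)) := by
  rw [← P.mul _ (P.ee_mem f) _ (P.ee_mem g), ee_mul]
theorem d_sq (j : ι) : P.d j * P.d j = 1 := P.E_sq (P.V_le_E j (P.d_mem_V j))
theorem x_sq (j : ι) : P.x j * P.x j = 1 := P.E_sq (P.V_le_E j (P.x_mem_V j))

theorem wt_t_mul {a b c d : Pr ι} (hab : a ≠ b) (hac : a ≠ c) (had : a ≠ d) (hbc : b ≠ c) (hbd : b ≠ d)
    (hcd : c ≠ d) : P.wt (P.t a b * P.t c d) = 8 := by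
  rw [← P.mul _ (P.tt_mem a b) _ (P.tt_mem c d), P.wt_F (mul_mem (P.tt_mem a b) (P.tt_mem c d)) (by
    rw [mul_assoc, ← mul_assoc (tt c d), tt_comm c d, mul_assoc, tt_sq, mul_one, tt_sq]),
    w_tt_mul hab hac had hbc hbd hcd]

/-- An element centralises `V j` as soon as it commutes with `x j` and `d j`. -/
theorem mem_cent_V {j : ι} {g : G} (h1 : g * P.x j = P.x j * g) (h2 : g * P.d j = P.d j * g) :
    g ∈ centralizer (P.V j : Set G) := fun v hv => by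
  rcases P.mem_V'.1 hv with rfl | rfl | rfl | rfl
  exacts [by simp, h1.symm, h2.symm, by rw [mul_assoc, ← h2, ← mul_assoc, ← h1, mul_assoc]]

theorem E_le_cent_V (j : ι) : P.E ≤ centralizer (P.V j : Set G) := fun _ hg _ hv => P.E_comm (P.V_le_E j hv) hg

end Pat

end Cfsg.Agent.AQ
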