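import Mathlib
import Cfsg.Agent.AQ.Kit
import Cfsg.Agent.Cl.ClassDiag

/-! The `A₁₀` pattern does not occur in a linear group of degree four modulo `±1`. -/

set_option autoImplicit false
open Subgroup Equiv
open Cfsg.Agent.Inv.Fz

namespace Cfsg.Agent.AQ
open Cfsg.Agent.AP (w Y odd_Y cj_Y cj_Y_le via_via via_swap via_mul via_inj w_via via_mem_alt four_dvd_w conj_of_w)

namespace Lin

open Module

section Dbl

variable {K R : Type*} [Field K] [Ring R] [Algebra K R]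

theorem eq_zero_of_neg (h2 : (2 : K) ≠ 0) {x : R} (h : x = -x) : x = 0 := by
  have : (2 : K) • x = 0 := by
    rw [two_smul]
    exact add_eq_zero_iff_eq_neg.2 h
  exact (smul_eq_zero.1 this).resolve_left h2

/-- Doubling by an anticommuting unit. -/
theorem dbl [FiniteDimensional K R] (h2 : (2 : K) ≠ 0) {W : Submodule K R} {X Z : R}
    (hX : IsUnit X) (hZ : IsUnit Z) (anti : X * Z = -(Z * X)) (hW : ∀ v ∈ W, Commute X v) :
    ∃ W' : Submodule K R, finrank K W' = 2 * finrank K W ∧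
      ∀ A, Commute A Z → (∀ v ∈ W, Commute A v) → ∀ v ∈ W', Commute A v := by
  have hi : Function.Injective (LinearMap.mulRight K Z) := fun a b e => hZ.mul_left_inj.1 e
  refine ⟨W ⊔ W.map (LinearMap.mulRight K Z), ?_, fun A hA hA' v hv => ?_⟩
  · have h1 := Submodule.finrank_sup_add_finrank_inf_eq W (W.map (LinearMap.mulRight K Z))
    have h3 : W ⊓ W.map (LinearMap.mulRight K Z) = ⊥ := by
      rw [eq_bot_iff]
      rintro _ ⟨h4, v, hv, rfl⟩
      have h5 : X * (v * Z) = v * Z * X := hW _ h4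
      have h6 : v * Z * X = 0 := eq_zero_of_neg h2 (by
        calc v * Z * X = v * (X * Z) := by rw [← h5, ← mul_assoc, (hW v hv).eq, mul_assoc]
          _ = _ := by rw [anti, mul_neg, mul_assoc])
      exact hX.mul_left_eq_zero.1 h6
    rw [h3, finrank_bot, add_zero, ← (Submodule.equivMapOfInjective _ hi W).finrank_eq] at h1
    omega
  · obtain ⟨a, ha, _, ⟨b, hb, rfl⟩, rfl⟩ := Submodule.mem_sup.1 hv
    exact (hA' a ha).add_right ((hA' b hb).mul_right hA)

theorem comm_of_sixteen [FiniteDimensional K R] [Nontrivial R] (h2 : (2 : K) ≠ 0)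
    (h16 : finrank K R = 16) {A D A' D' B B' : R} (uA : IsUnit A) (uD : IsUnit D)
    (uA' : IsUnit A') (uD' : IsUnit D') (e : A * D = -(D * A)) (e' : A' * D' = -(D' * A'))
    (c1 : Commute A' A) (c2 : Commute A' D) (c3 : Commute D' A) (c4 : Commute D' D)
    (c5 : Commute A' B) (c6 : Commute D' B) (c7 : Commute B' A) (c8 : Commute B' D) :
    Commute B' B := by
  have h0 : ∀ X : R, ∀ v ∈ Submodule.span K {(1 : R)}, Commute X v := fun X v hv => by
    obtain ⟨a, rfl⟩ := Submodule.mem_span_singleton.1 hv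
    exact (Commute.one_right X).smul_right a
  obtain ⟨W1, d1, k1⟩ := dbl h2 uD uA (by rw [e, neg_neg]) (h0 D)
  obtain ⟨W2, d2, k2⟩ := dbl h2 uA uD e (k1 A (Commute.refl A) (h0 A))
  rw [d1, finrank_span_singleton one_ne_zero] at d2
  by_contra hne
  have hB : B ∉ W2 := fun h => hne (k2 B' c8 (k1 B' c7 (h0 B')) B h)
  have d3 : finrank K W2 < finrank K ↥(W2 ⊔ Submodule.span K {B}) :=
    Submodule.finrank_lt_finrank_of_lt (lt_of_le_of_ne le_sup_left fun h =>
      hB (h ▸ Submodule.mem_sup_right (Submodule.mem_span_singleton_self B)))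
  have k3 : ∀ X, Commute X A → Commute X D → Commute X B →
      ∀ v ∈ W2 ⊔ Submodule.span K {B}, Commute X v := fun X hA hD hB v hv => by
    obtain ⟨a, ha, b, hb, rfl⟩ := Submodule.mem_sup.1 hv
    obtain ⟨c, rfl⟩ := Submodule.mem_span_singleton.1 hb
    exact (k2 X hD (k1 X hA (h0 X)) a ha).add_right (hB.smul_right c)
  obtain ⟨W4, d4, k4⟩ := dbl h2 uD' uA' (by rw [e', neg_neg]) (k3 D' c3 c4 c6)
  obtain ⟨W5, d5, -⟩ := dbl h2 uA' uD' e' (k4 A' (Commute.refl A') (k3 A' c1 c2 c5))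
  have := Submodule.finrank_le W5
  omega

end Dbl

theorem pow_val_add {R : Type*} [Monoid R] {g : R} (h : g * g = 1) (a b : ZMod 2) :
    g ^ (a + b).val = g ^ a.val * g ^ b.val := by
  have k : ∀ a : ZMod 2, a = 0 ∨ a = 1 := by decide
  rcases k a with rfl | rfl
  · rw [zero_add, ZMod.val_zero, pow_zero, one_mul]
  rcases k b with rfl | rfl
  · rw [add_zero, ZMod.val_zero, pow_zero, mul_one]
  · exact (pow_zero g).trans (by rw [ZMod.val_one, pow_one, h])

theorem no_thirty_two {K : Type*} [Field K] (h2 : (2 : K) ≠ 0) {A D A' D' : Matrix (Fin 4) (Fin 4) K}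
    (sA : A * A = 1) (sD : D * D = 1) (sA' : A' * A' = 1) (sD' : D' * D' = 1) (e : Commute A D)
    (e' : Commute A' D') (c1 : Commute A A') (c2 : Commute D A') (c3 : Commute A D')
    (c4 : Commute D D')
    (ind : ∀ i j k l : ZMod 2, (A ^ i.val * D ^ j.val * A' ^ k.val * D' ^ l.val = 1 ∨
      A ^ i.val * D ^ j.val * A' ^ k.val * D' ^ l.val = -1) → i = 0 ∧ j = 0 ∧ k = 0 ∧ l = 0) :
    False := by
  let φ : Multiplicative (ZMod 2 × ZMod 2 × ZMod 2 × ZMod 2 × ZMod 2) →*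
      Matrix (Fin 4) (Fin 4) K :=
    { toFun := fun v => A ^ v.toAdd.1.val * D ^ v.toAdd.2.1.val * A' ^ v.toAdd.2.2.1.val *
        D' ^ v.toAdd.2.2.2.1.val * (-1) ^ v.toAdd.2.2.2.2.val
      map_one' := by simp
      map_mul' := fun u v => by
        simp only [toAdd_mul, Prod.fst_add, Prod.snd_add, pow_val_add sA, pow_val_add sD,
          pow_val_add sA', pow_val_add sD',
          pow_val_add (neg_mul_neg (1 : Matrix (Fin 4) (Fin 4) K) 1 |>.trans (one_mul 1))]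
        rw [(e.pow_pow _ _).mul_mul_mul_comm,
          ((c1.pow_pow _ _).mul_left (c2.pow_pow _ _)).mul_mul_mul_comm,
          (((c3.pow_pow _ _).mul_left (c4.pow_pow _ _)).mul_left
            (e'.pow_pow _ _)).mul_mul_mul_comm,
          ((Commute.neg_one_right _).pow_right _).mul_mul_mul_comm] }
  have hne : (-1 : Matrix (Fin 4) (Fin 4) K) ≠ 1 := fun h =>
    one_ne_zero (eq_zero_of_neg h2 h.symm)
  have hφ : Function.Injective φ := by
    rw [injective_iff_map_eq_one]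
    intro v hv
    obtain ⟨⟨i, j, k, l, m⟩, rfl⟩ := Multiplicative.ofAdd.surjective v
    change A ^ i.val * D ^ j.val * A' ^ k.val * D' ^ l.val * (-1) ^ m.val = 1 at hv
    have k0 : ∀ a : ZMod 2, a = 0 ∨ a = 1 := by decide
    rcases k0 m with rfl | rfl
    · rw [ZMod.val_zero, pow_zero, mul_one] at hv
      obtain ⟨rfl, rfl, rfl, rfl⟩ := ind i j k l (Or.inl hv)
      rfl
    · rw [ZMod.val_one, pow_one, mul_neg_one, neg_eq_iff_eq_neg] at hv
      obtain ⟨rfl, rfl, rfl, rfl⟩ := ind i j k l (Or.inr hv)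
      exact absurd (by simpa using hv.symm) hne
  have hc : ringChar K ≠ 2 := fun h => h2 (by exact_mod_cast (ringChar.spec K 2).2 (by rw [h]))
  have := Cl.Cls.card_le_pow_of_commute φ hφ (fun a b => Commute.all a b) two_pos
    (IsPrimitiveRoot.neg_one (ringChar K) hc) (by decide)
  simp at this

section Sg

variable {K : Type*} [Field K] {H Q : Type*} [Group H] [Group Q]
  {ρ : H →* Matrix (Fin 4) (Fin 4) K} {p : H →* Q}

/-- The square of every lift of `x` is the scalar `e`. -/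
def Sq (ρ : H →* Matrix (Fin 4) (Fin 4) K) (p : H →* Q) (x : Q) (e : K) : Prop :=
  ∀ h, p h = x → ρ h * ρ h = e • 1

theorem exists_sq (hp : Function.Surjective p) (hker : ∀ h, p h = 1 → ρ h = 1 ∨ ρ h = -1) {x : Q}
    (hx : x * x = 1) : ∃ e : K, (e = 1 ∨ e = -1) ∧ ∀ y, IsConj x y → Sq ρ p y e := by
  obtain ⟨a, rfl⟩ := hp x
  obtain ⟨e, he, h1⟩ : ∃ e : K, (e = 1 ∨ e = -1) ∧ ρ (a * a) = e • 1 := by
    rcases hker (a * a) (by rw [map_mul, hx]) with h | h
    exacts [⟨1, Or.inl rfl, by rw [h, one_smul]⟩, ⟨-1, Or.inr rfl, by rw [h, neg_one_smul]⟩]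
  refine ⟨e, he, fun y hy b hb => ?_⟩
  obtain ⟨g, hg⟩ := isConj_iff.1 hy
  obtain ⟨g, rfl⟩ := hp g
  have h2 : ρ (g * a * g⁻¹) * ρ (g * a * g⁻¹) = e • 1 := by
    rw [← map_mul, conj_mul, map_mul, map_mul, h1, mul_smul_comm, smul_mul_assoc, mul_one,
      ← map_mul, mul_inv_cancel, map_one]
  have h3 : ρ b = ρ (g * a * g⁻¹) * ρ ((g * a * g⁻¹)⁻¹ * b) := by
    rw [← map_mul, mul_inv_cancel_left]
  rcases hker ((g * a * g⁻¹)⁻¹ * b) (by
    rw [map_mul, map_inv, map_mul, map_mul, map_inv, hg, hb, inv_mul_cancel]) with h | h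
  · rw [h3, h, mul_one, h2]
  · rw [h3, h, mul_neg_one, neg_mul_neg, h2]

theorem Sq.comm {x y : Q} {e e' f : K} (hx : Sq ρ p x e) (hy : Sq ρ p y e') (h : Sq ρ p (x * y) f)
    (hf : f = 1 ∨ f = -1) {a b : H} (ha : p a = x) (hb : p b = y) :
    ρ a * ρ b = (f * e * e') • (ρ b * ρ a) := by
  have h1 := h (a * b) (by rw [map_mul, ha, hb])
  have h2 : ρ a * (ρ (a * b) * ρ (a * b)) * ρ b = ρ a * ρ a * (ρ b * ρ a) * (ρ b * ρ b) := by
    simp only [map_mul, mul_assoc]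
  rw [h1, hx a ha, hy b hb] at h2
  simp only [mul_smul_comm, smul_mul_assoc, mul_one, one_mul, smul_smul] at h2
  have h3 : f * f = 1 := by rcases hf with rfl | rfl <;> simp
  rw [mul_assoc, mul_comm e, mul_smul, ← h2, smul_smul, h3, one_smul]

end Sg

end Lin

open Lin in
/-- The `A₁₀` pattern on `D₈ × D₈` does not occur in a linear group of degree four modulo `±1`. -/
theorem no_lin {K : Type*} [Field K] (h2 : (2 : K) ≠ 0) {H Q : Type*} [Group H] [Group Q]
    (ρ : H →* Matrix (Fin 4) (Fin 4) K) (p : H →* Q) (hp : Function.Surjective p)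
    (hker : ∀ h, p h = 1 → ρ h = 1 ∨ ρ h = -1) (hker' : ∀ h, ρ h = 1 ∨ ρ h = -1 → p h = 1)
    {a1 d1 b1 a2 d2 b2 : Q}
    (sq : ∀ x ∈ [a1, d1, b1, a2, d2, b2], x * x = 1)
    (c1 : Commute a1 d1) (c2 : Commute a2 d2) (cc : ∀ x ∈ [a1, d1, b1], ∀ y ∈ [a2, d2, b2], Commute x y)
    (ind : ∀ i j k l : Fin 2, a1 ^ (i : ℕ) * d1 ^ (j : ℕ) * a2 ^ (k : ℕ) * d2 ^ (l : ℕ) = 1 →
      i = 0 ∧ j = 0 ∧ k = 0 ∧ l = 0)
    (h4 : ∀ x ∈ [a1, a1 * d1, a2, d2, a2 * d2, b1, b2, b1 * b2], IsConj d1 x)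
    (h8 : ∀ y ∈ [a1 * a2, a1 * d2, d1 * a2, a1 * d1 * a2, b1 * a2, b1 * d2, a1 * b2, d1 * b2], IsConj (d1 * d2) y) :
    False := by
  obtain ⟨e, he, k4⟩ := exists_sq hp hker (sq d1 (by simp))
  obtain ⟨f, hf, k8⟩ := exists_sq hp hker (x := d1 * d2) (by
    rw [(cc d1 (by simp) d2 (by simp)).symm.mul_mul_mul_comm, sq d1 (by simp), sq d2 (by simp),
      one_mul])
  simp only [List.forall_mem_cons] at h4 h8
  obtain ⟨p1, p2, p3, p4, p5, p6, p7, p8, -⟩ := h4
  obtain ⟨q1, q2, q3, q4, q5, q6, q7, q8, -⟩ := h8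
  have p0 := IsConj.refl d1
  have q0 := IsConj.refl (d1 * d2)
  obtain ⟨A, rfl⟩ := hp a1
  obtain ⟨D, rfl⟩ := hp d1
  obtain ⟨B, rfl⟩ := hp b1
  obtain ⟨A', rfl⟩ := hp a2
  obtain ⟨D', rfl⟩ := hp d2
  obtain ⟨B', rfl⟩ := hp b2
  have ee : e * e = 1 := by rcases he with rfl | rfl <;> simp
  have un : ∀ h, IsUnit (ρ h) := fun h => (Group.isUnit h).map ρ
  have m8 : ∀ {a b : H}, IsConj (p D) (p a) → IsConj (p D) (p b) →
      IsConj (p D * p D') (p a * p b) → ρ a * ρ b = f • (ρ b * ρ a) := fun h1 h3 h5 => by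
    rw [(k4 _ h1).comm (k4 _ h3) (k8 _ h5) hf rfl rfl, mul_assoc, ee, mul_one]
  have m4 : ∀ {a b : H}, IsConj (p D) (p a) → IsConj (p D) (p b) →
      IsConj (p D) (p a * p b) → ρ a * ρ b = e • (ρ b * ρ a) := fun h1 h3 h5 => by
    rw [(k4 _ h1).comm (k4 _ h3) (k4 _ h5) he rfl rfl, ee, one_mul]
  obtain rfl : f = 1 := by
    refine hf.resolve_right ?_
    rintro rfl
    have h1 := m8 (a := A * D) (by rwa [map_mul]) p3 (by rwa [map_mul])
    rw [map_mul, mul_assoc, m8 p0 p3 q3, mul_smul_comm, ← mul_assoc, m8 p1 p3 q1, smul_mul_assoc,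
      smul_smul, neg_mul_neg, one_mul, one_smul, neg_one_smul, mul_assoc] at h1
    exact ((un A').mul ((un A).mul (un D))).ne_zero (eq_zero_of_neg h2 h1)
  simp only [one_smul] at m8
  rcases he with rfl | rfl
  · simp only [one_smul] at m4
    refine no_thirty_two h2 ((k4 _ p1 A rfl).trans (one_smul _ _))
      ((k4 _ p0 D rfl).trans (one_smul _ _)) ((k4 _ p3 A' rfl).trans (one_smul _ _))
      ((k4 _ p4 D' rfl).trans (one_smul _ _)) (m4 p1 p0 p2) (m4 p3 p4 p5) (m8 p1 p3 q1)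
      (m8 p0 p3 q3) (m8 p1 p4 q2) (m8 p0 p4 q0) fun i j k l h => ind i j k l ?_
    have := hker' (A ^ i.val * D ^ j.val * A' ^ k.val * D' ^ l.val)
      (by simpa only [map_mul, map_pow] using h)
    simp only [map_mul, map_pow] at this
    exact this
  · simp only [neg_one_smul] at m4
    have h1 : Commute (ρ B') (ρ B) := comm_of_sixteen h2 (by simp [Module.finrank_matrix]) (un A)
      (un D) (un A') (un D') (m4 p1 p0 p2) (m4 p3 p4 p5) (m8 p1 p3 q1).symm (m8 p0 p3 q3).symm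
      (m8 p1 p4 q2).symm (m8 p0 p4 q0).symm (m8 p6 p3 q5).symm (m8 p6 p4 q6).symm
      (m8 p1 p7 q7).symm (m8 p0 p7 q8).symm
    exact ((un B').mul (un B)).ne_zero (eq_zero_of_neg h2 (h1.eq.trans (m4 p6 p7 p8)))

end Cfsg.Agent.AQ
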