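import Mathlib
import Cfsg.Agent.AQ.Kit
import Cfsg.Agent.Kon.ThmB

/-! Facts on a `2`-group of even permutations containing the letters. -/

set_option autoImplicit false
set_option linter.unusedSectionVars false
open Subgroup Equiv
open Cfsg.Agent.Inv.Fz

namespace Cfsg.Agent.AQ
open Cfsg.Agent.AP (w Y odd_Y cj_Y cj_Y_le via_via via_swap via_mul via_inj w_via via_mem_alt four_dvd_w conj_of_w)

variable {ι : Type} [Fintype ι] [DecidableEq ι]

namespace TFA

omit [Fintype ι] [DecidableEq ι] in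
theorem nf_of {t : Perm (Pt ι)} {σ : Pr ι → Pr ι} (h : ∀ a e, (t (a, e)).1 = σ a) (a : Pr ι) (e : Bool) :
    t (a, e) = (σ a, xor e (t (a, false)).2) := by
  cases e
  · exact Prod.ext (h a false) (by simp)
  · have h1 : t (a, true) ≠ t (a, false) := fun h => by simpa using t.injective h
    have h2 := h a false
    have h3 := h a true
    generalize t (a, true) = p at h1 h3
    generalize t (a, false) = q at h1 h2
    obtain ⟨p1, p2⟩ := p
    obtain ⟨q1, q2⟩ := q
    simp only at h2 h3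
    subst h2
    subst h3
    revert h1
    cases p2 <;> cases q2 <;> simp

omit [Fintype ι] [DecidableEq ι] in
theorem no3 {T : Subgroup (Perm (Pt ι))} (h : IsPGroup 2 T) {g : Perm (Pt ι)} (hg : g ∈ T) {p q r : Pt ι}
    (h1 : g p = r) (h2 : g r = q) (h3 : g q = p) : r = p := by
  obtain ⟨n, hn⟩ := h ⟨g, hg⟩
  have e : g ^ 2 ^ n = 1 := congrArg Subtype.val hn
  have a : Function.IsPeriodicPt g 3 p := by
    change g (g (g p)) = p
    rw [h1, h2, h3]
  have b : Function.IsPeriodicPt g (2 ^ n) p := by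
    change g^[2 ^ n] p = p
    rw [Perm.iterate_eq_pow, e, Perm.one_apply]
  have c := a.gcd b
  rw [Nat.Coprime.gcd_eq_one (Nat.Coprime.pow_right n (by decide))] at c
  exact h1.symm.trans c

omit [Fintype ι] in
theorem sg_fix {l : ι} (v : Bool × Bool) {q : Pt ι} (h : blk q.1 ≠ some l) : sg l v q = q := by
  obtain ⟨_ | ⟨m, c⟩, e⟩ := q
  · rfl
  · simp [sg, show m ≠ l from fun e => h (by rw [e]; rfl)]

omit [Fintype ι] [DecidableEq ι] in
theorem blk_eq {a : Pr ι} {l : ι} (h : blk a = some l) : ∃ c, a = some (l, c) := by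
  rcases a with _ | ⟨m, c⟩
  · simp at h
  · obtain rfl : m = l := by simpa using h
    exact ⟨c, rfl⟩

omit [Fintype ι] [DecidableEq ι] in
theorem blk_eq_none {a : Pr ι} (h : blk a = none) : a = none := by
  rcases a with _ | ⟨m, c⟩
  · rfl
  · simp at h

omit [Fintype ι] in
theorem exists_sg {l : ι} {p r : Pt ι} (hp : blk p.1 = some l) (hr : blk r.1 = some l) :
    ∃ v, sg l v p = r ∧ sg l v r = p := by
  obtain ⟨a, e⟩ := p
  obtain ⟨a', e'⟩ := r
  obtain ⟨c, rfl⟩ := blk_eq (a := a) hp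
  obtain ⟨c', rfl⟩ := blk_eq (a := a') hr
  exact ⟨(xor c c', xor e e'), by cases c <;> cases c' <;> cases e <;> cases e' <;> simp [sg]⟩

omit [Fintype ι] [DecidableEq ι] in
theorem third [Nontrivial ι] (a a' : Pr ι) : ∃ b, b ≠ a ∧ b ≠ a' := by
  obtain ⟨j, -⟩ := exists_pair_ne ι
  by_contra hc
  push Not at hc
  by_cases h1 : none = a
  · subst h1
    have := (hc (some (j, false)) (by simp)).trans (hc (some (j, true)) (by simp)).symm
    simp at this
  · obtain rfl := hc none h1
    by_cases h2 : some (j, false) = a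
    · subst h2
      simpa using hc (some (j, true)) (by simp)
    · simpa using hc _ h2

omit [Fintype ι] in
theorem tt_fix {a b : Pr ι} {q : Pt ι} (h1 : q.1 ≠ a) (h2 : q.1 ≠ b) : tt a b q = q := by
  obtain ⟨c, e⟩ := q
  simp [tt_eq, show c ≠ a from h1, show c ≠ b from h2]

omit [Fintype ι] in
theorem tt_left {a b : Pr ι} (h : a ≠ b) (e : Bool) : tt a b (a, e) = (a, !e) := by simp [tt_eq, h]

variable {T : Subgroup (Perm (Pt ι))}

theorem blkB [Nontrivial ι] (h : TM T) {t : Perm (Pt ι)} (ht : t ∈ T) (a : Pr ι) :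
    (t (a, true)).1 = (t (a, false)).1 := by
  by_contra hne
  obtain ⟨b, hb1, hb2⟩ := third a (t⁻¹ ((t (a, false)).1, !(t (a, false)).2)).1
  obtain ⟨b', hb3, hb4⟩ := third (t (a, false)).1 (t (a, true)).1
  have hg : t * tt a b * t⁻¹ * tt (t (a, false)).1 b' ∈ T :=
    mul_mem (mul_mem (mul_mem ht (h.J (tt_mem_J0 _ _))) (inv_mem ht)) (h.J (tt_mem_J0 _ _))
  have b2 : (t⁻¹ ((t (a, false)).1, !(t (a, false)).2)).1 ≠ a := fun e => by
    have e1 : t⁻¹ ((t (a, false)).1, !(t (a, false)).2) = (a, (t⁻¹ ((t (a, false)).1, !(t (a, false)).2)).2) :=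
      Prod.ext e rfl
    rw [Perm.inv_eq_iff_eq] at e1
    generalize (t⁻¹ ((t (a, false)).1, !(t (a, false)).2)).2 = x at e1
    cases x
    · simpa using congrArg Prod.snd e1
    · exact hne (congrArg Prod.fst e1).symm
  have := no3 h.two hg (p := t (a, false)) (r := ((t (a, false)).1, !(t (a, false)).2)) (q := t (a, true))
    (by
      simp only [Perm.mul_apply]
      rw [show tt (t (a, false)).1 b' (t (a, false)) = _ from tt_left hb3.symm (t (a, false)).2,
        tt_fix b2 hb2.symm]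
      simp)
    (by simp only [Perm.mul_apply, tt_left hb3.symm]; simp [tt_left hb1.symm])
    (by simp only [Perm.mul_apply]; rw [tt_fix hne hb4.symm]; simp [tt_left hb1.symm])
  simpa using congrArg Prod.snd this

theorem blkA (h : TM T) {t : Perm (Pt ι)} (ht : t ∈ T) {σ : Perm (Pr ι)} (h1 : ∀ a e, (t (a, e)).1 = σ a)
    {j l : ι} {c d : Bool} (hc : σ (some (j, c)) = some (l, d)) (c' : Bool) : blk (σ (some (j, c'))) = some l := by
  by_contra hne
  have hr2 : blk (t⁻¹ (some (l, !d), false)).1 ≠ some j := fun e => by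
    obtain ⟨x, hx⟩ := blk_eq e
    have e1 := h1 (t⁻¹ (some (l, !d), false)).1 (t⁻¹ (some (l, !d), false)).2
    rw [Prod.mk.eta, hx, show t (t⁻¹ (some (l, !d), false)) = (some (l, !d), false) by simp] at e1
    by_cases hx : x = c
    · rw [hx, hc] at e1
      simp at e1
    · have : c' ≠ c := fun e => hne (by rw [e, hc]; rfl)
      obtain rfl : x = c' := by revert hx this; cases x <;> cases c <;> cases c' <;> simp
      exact hne (by rw [← e1]; rfl)
  obtain ⟨v, c1, c2⟩ := exists_sg (l := l) (p := t (some (j, c), false)) (r := (some (l, !d), false))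
    (by rw [h1, hc]; rfl) rfl
  obtain ⟨u, d1, d2⟩ := exists_sg (l := j) (p := (some (j, c), false)) (r := (some (j, c'), false)) rfl rfl
  have hg : t * sg j u * t⁻¹ * sg l v ∈ T :=
    mul_mem (mul_mem (mul_mem ht (h.J (V0_le_J0 _ ⟨u, rfl⟩))) (inv_mem ht)) (h.J (V0_le_J0 _ ⟨v, rfl⟩))
  have := no3 h.two hg (p := t (some (j, c), false)) (r := (some (l, !d), false)) (q := t (some (j, c'), false))
    (by simp only [Perm.mul_apply, c1]; rw [sg_fix u hr2]; simp)
    (by simp only [Perm.mul_apply, c2]; simp [d1])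
    (by simp only [Perm.mul_apply]; rw [sg_fix v (by rw [h1]; exact hne)]; simp [d2])
  exact hr2 (by rw [this]; simp)

theorem w_nf {t : Perm (Pt ι)} {σ : Pr ι → Pr ι} {S : Pr ι → Bool}
    (h : ∀ a e, t (a, e) = (σ a, xor e (S a))) :
    w t = 2 * (Finset.univ.filter fun a => σ a ≠ a ∨ S a = true).card := by
  have : t.support = (Finset.univ.filter fun a => σ a ≠ a ∨ S a = true) ×ˢ Finset.univ := by
    ext ⟨a, e⟩
    by_cases h1 : σ a = a <;> cases h2 : S a <;> cases e <;> simp [Perm.mem_support, h, h1, h2]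
  rw [w, this, Finset.card_product, Finset.card_univ, Fintype.card_bool, mul_comm]

omit [Fintype ι] [DecidableEq ι] in
theorem sq_nf {t : Perm (Pt ι)} {σ : Pr ι → Pr ι} {S : Pr ι → Bool}
    (h : ∀ a e, t (a, e) = (σ a, xor e (S a))) (t2 : t * t = 1) (a : Pr ι) : σ (σ a) = a ∧ S (σ a) = S a := by
  have := congrArg (fun x : Perm (Pt ι) => x (a, false)) t2
  simp only [Perm.mul_apply, h, Perm.one_apply, Prod.mk.injEq] at this
  refine ⟨this.1, ?_⟩
  have h2 := this.2
  revert h2
  cases S (σ a) <;> cases S a <;> simp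

omit [Fintype ι] in
theorem tau_mem (n : ℕ) : ∀ s : Finset (Pr ι), s.card = 2 * n → tau (fun a => decide (a ∈ s)) ∈ J0 ι := by
  induction n with
  | zero =>
    intro s hs
    rw [Finset.card_eq_zero.1 hs]
    simp [tau_false]
  | succ n ih =>
    intro s hs
    obtain ⟨a, ha, b, hb, hab⟩ := Finset.one_lt_card.1 (show 1 < s.card by omega)
    have hb' : b ∈ s.erase a := Finset.mem_erase.2 ⟨hab.symm, hb⟩
    have := mul_mem (tt_mem_J0 a b) (ih ((s.erase a).erase b) (by
      rw [Finset.card_erase_of_mem hb', Finset.card_erase_of_mem ha]; omega))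
    rw [tt_eq, tau_mul] at this
    convert this using 2
    ext c
    by_cases h1 : c = a <;> by_cases h2 : c = b <;> simp_all

end TFA

open TFA

theorem conj_t1 {t : Perm (Pt ι)} {σ : Perm (Pr ι)} (h : ∀ a e, (t (a, e)).1 = σ a) (a : Pr ι) :
    t * t1 a * t⁻¹ = t1 (σ a) := by
  rw [mul_inv_eq_iff_eq_mul]
  ext ⟨b, e⟩ : 1
  simp only [Perm.mul_apply, t1, tau_apply]
  rw [nf_of h b e, nf_of h b (xor e _), tau_apply]
  simp only [EmbeddingLike.apply_eq_iff_eq]
  cases e <;> cases decide (b = a) <;> cases (t (b, false)).2 <;> rfl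

theorem TFA.conj_tt {t : Perm (Pt ι)} {σ : Perm (Pr ι)} (h : ∀ a e, (t (a, e)).1 = σ a) (a b : Pr ι) :
    t * tt a b * t⁻¹ = tt (σ a) (σ b) := by
  rw [tt, tt, ← conj_t1 h, ← conj_t1 h]; group

variable [Nontrivial ι] {T : Subgroup (Perm (Pt ι))}

theorem TM.blocks (h : TM T) {t : Perm (Pt ι)} (ht : t ∈ T) :
    ∃ σ : Perm (Pr ι), (∀ a e, (t (a, e)).1 = σ a) ∧ σ none = none ∧
      ∀ j c c', blk (σ (some (j, c))) = blk (σ (some (j, c'))) := by
  have h1 : ∀ a e, (t (a, e)).1 = (t (a, false)).1 := fun a e => by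
    cases e
    exacts [rfl, blkB h ht a]
  have hi : Function.Injective fun a : Pr ι => (t (a, false)).1 := by
    intro a b e
    have : t (a, xor (t (a, false)).2 (t (b, false)).2) = t (b, false) := (nf_of h1 a _).trans
      (Prod.ext e (by cases (t (a, false)).2 <;> cases (t (b, false)).2 <;> simp))
    exact congrArg Prod.fst (t.injective this)
  obtain ⟨σ, h2⟩ : ∃ σ : Perm (Pr ι), ∀ a e, (t (a, e)).1 = σ a :=
    ⟨Equiv.ofBijective _ (Finite.injective_iff_bijective.1 hi), h1⟩
  have h3 : ∀ j c c', blk (σ (some (j, c))) = blk (σ (some (j, c'))) := fun j c c' => by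
    rcases e : σ (some (j, c)) with _ | ⟨l, d⟩
    · rcases e' : σ (some (j, c')) with _ | ⟨l, d⟩
      · rfl
      · have := blkA h ht h2 e' c
        rw [e] at this
        exact this
    · exact (blkA h ht h2 e c').symm
  refine ⟨σ, h2, ?_, h3⟩
  obtain ⟨_ | ⟨j, c⟩, e⟩ := σ.surjective none
  · exact e
  · have e1 := h3 j (!c) c
    rw [e] at e1
    have := σ.injective ((blk_eq_none e1).trans e.symm)
    simp at this

theorem TFA.nf (h : TM T) {t : Perm (Pt ι)} (ht : t ∈ T) : ∃ (σ : Perm (Pr ι)) (S : Pr ι → Bool),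
    (∀ a e, t (a, e) = (σ a, xor e (S a))) ∧ σ none = none ∧
      ∀ j c c', blk (σ (some (j, c))) = blk (σ (some (j, c'))) := by
  obtain ⟨σ, h1, h2⟩ := h.blocks ht
  exact ⟨σ, _, nf_of h1, h2⟩

theorem TM.wt4 (h : TM T) {t : Perm (Pt ι)} (ht : t ∈ T) (t2 : t * t = 1) (h4 : w t = 4) :
    (∃ j, t ∈ V0 j) ∨ ∃ a b : Pr ι, blk a ≠ blk b ∧ t = tt a b := by
  obtain ⟨σ, S, h1, h0, h2⟩ := TFA.nf h ht
  have h3 := sq_nf h1 t2
  rw [w_nf h1] at h4
  obtain ⟨a, b, hab, e⟩ := Finset.card_eq_two.1 (show (Finset.univ.filter fun a => σ a ≠ a ∨ S a = true).card = 2 by omega)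
  have hM : ∀ c, (σ c ≠ c ∨ S c = true) ↔ c = a ∨ c = b := fun c => by simpa using Finset.ext_iff.1 e c
  have hmv : ∀ c, σ c ≠ c → σ c = a ∨ σ c = b := fun c hc => (hM _).1 (Or.inl fun e => hc (σ.injective e))
  have hout : ∀ c, c ≠ a → c ≠ b → σ c = c ∧ S c = false := fun c h1 h2 => by
    simpa using mt (hM c).1 (not_or.2 ⟨h1, h2⟩)
  by_cases ha : σ a = a
  · have hb : σ b = b := by
      by_contra hb
      exact hab (σ.injective (ha.trans ((hmv b hb).resolve_right hb).symm))
    have sa : S a = true := ((hM a).2 (Or.inl rfl)).resolve_left (not_not.2 ha)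
    have sb : S b = true := ((hM b).2 (Or.inr rfl)).resolve_left (not_not.2 hb)
    have et : t = tt a b := by
      ext ⟨c, x⟩ : 1
      rw [h1, tt_eq, tau_apply]
      by_cases c1 : c = a
      · subst c1; simp [ha, sa, hab]
      by_cases c2 : c = b
      · subst c2; simp [hb, sb, c1]
      simp [hout c c1 c2, c1, c2]
    by_cases hj : blk a = blk b
    · rcases a with _ | ⟨j, c⟩
      · exact absurd (blk_eq_none hj.symm).symm hab
      obtain ⟨c', rfl⟩ := blk_eq hj.symm
      refine Or.inl ⟨j, mem_V0'.2 (Or.inr (Or.inr (Or.inl ?_)))⟩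
      rw [et, md_eq]
      cases c <;> cases c'
      exacts [absurd rfl hab, rfl, tt_symm _ _, absurd rfl hab]
    · exact Or.inr ⟨a, b, hj, et⟩
  · have e1 : σ a = b := (hmv a ha).resolve_left ha
    have e2 : σ b = a := by rw [← e1, (h3 a).1]
    have e3 : S b = S a := by rw [← e1, (h3 a).2]
    rcases a with _ | ⟨j, c⟩
    · exact absurd h0 ha
    have e4 : b = some (j, !c) := by
      by_contra hb
      have k := h2 j c (!c)
      rw [e1, (hout (some (j, !c)) (by simp) (Ne.symm hb)).1] at k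
      obtain ⟨c', rfl⟩ := blk_eq k
      revert hb hab
      cases c <;> cases c' <;> simp
    subst e4
    refine Or.inl ⟨j, (true, S (some (j, c))), ?_⟩
    ext ⟨_ | ⟨m, d⟩, x⟩ : 1
    · have := hout none (by simp) (by simp)
      rw [h1]
      simp [sg, this]
    rw [h1]
    by_cases hm : m = j
    · subst hm
      cases c <;> cases d <;> simp_all [sg]
    · have := hout (some (m, d)) (by simp [hm]) (by simp [hm])
      simp [sg, hm, this]

theorem TM.par (h : TM T) {t : Perm (Pt ι)} (ht : t ∈ T) (t2 : t * t = 1) {i : ι} (hc : t * md i = md i * t)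
    (hn : t * mx i ≠ mx i * t) :
    ∃ a b : Pr ι, a ≠ b ∧ t * tt a b = tt a b * t ∧ w (tt a b * t) + 4 = w t := by
  obtain ⟨σ, S, h1, -⟩ := TFA.nf h ht
  have h3 := sq_nf h1 t2
  have hb : ∀ c, blk (σ (some (i, c))) = some i := fun c => by
    by_contra hne
    have e := congrArg (fun x : Perm (Pt ι) => x (some (i, c), false)) hc
    simp only [Perm.mul_apply] at e
    rw [md, sg_fix _ (q := t (some (i, c), false)) (by rw [h1]; exact hne)] at e
    simpa [sg] using t.injective e
  choose κ hκ using fun c => blk_eq (hb c)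
  have hb2 : ∀ c, κ (!c) = !(κ c) := fun c => by
    have a1 : κ (!c) ≠ κ c := fun e => by
      have := σ.injective (show σ (some (i, !c)) = σ (some (i, c)) by rw [hκ, hκ, e])
      simp at this
    revert a1
    cases κ (!c) <;> cases κ c <;> simp
  have hb3 : ∀ a : Pr ι, blk a ≠ some i → blk (σ a) ≠ some i := fun a ha e => by
    obtain ⟨c, e1⟩ := blk_eq e
    have := hb c
    rw [← e1, (h3 a).1] at this
    exact ha this
  have hS : S (some (i, false)) ≠ S (some (i, true)) := fun e => hn (by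
    ext ⟨a, x⟩ : 1
    simp only [Perm.mul_apply]
    by_cases hm : blk a = some i
    · obtain ⟨c, rfl⟩ := blk_eq hm
      have e1 : mx i (some (i, c), x) = (some (i, !c), x) := by simp [mx, sg]
      have e2 : S (some (i, !c)) = S (some (i, c)) := by cases c <;> simp [e]
      rw [e1, h1, h1, hκ, hκ, hb2, e2]
      simp [mx, sg]
    · rw [mx, sg_fix _ (q := (a, x)) hm, sg_fix _ (by rw [h1]; exact hb3 a hm)])
  have hf : ∀ c, σ (some (i, c)) = some (i, c) := fun c => by
    have a1 := (h3 (some (i, c))).2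
    rw [hκ] at a1 ⊢
    generalize κ c = d at a1
    revert a1 hS
    cases c <;> cases d <;> simp [eq_comm]
  obtain ⟨a, a1, a2⟩ : ∃ a, σ a = a ∧ S a = true := by
    cases e : S (some (i, false))
    · exact ⟨some (i, true), hf _, by rw [e] at hS; simpa using hS⟩
    · exact ⟨some (i, false), hf _, e⟩
  have hw := w_nf h1
  obtain ⟨b, hab, b1, b2⟩ : ∃ b, a ≠ b ∧ σ b = b ∧ S b = true := by
    by_contra hc
    push Not at hc
    have e : (Finset.univ.filter fun a => σ a ≠ a ∨ S a = true) = insert a σ.support := by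
      ext c
      by_cases c1 : c = a
      · simp [c1, a2]
      · by_cases c2 : σ c = c
        · simpa [c1, c2] using hc c (Ne.symm c1) c2
        · simp [c2]
    obtain ⟨k, -, hk⟩ := Kon.ThmB.cyc (y := σ) (Equiv.ext fun a => (h3 a).1)
    have h4 : 4 ∣ w t := Kon.ThmB.four_dvd (y := ⟨t, h.alt ht⟩) (Subtype.ext t2)
    rw [hw, e, Finset.card_insert_of_notMem (by simp [a1]), hk] at h4
    omega
  refine ⟨a, b, hab, mul_inv_eq_iff_eq_mul.1 (by rw [TFA.conj_tt (σ := σ) fun a e => by rw [h1], a1, b1]), ?_⟩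
  have h5 : ∀ c e, (tt a b * t) (c, e) = (σ c, xor e (xor (S c) (xor (decide (σ c = a)) (decide (σ c = b))))) := by
    intro c e
    rw [Perm.mul_apply, h1, tt_eq, tau_apply, Bool.xor_assoc]
  have ca : ∀ c, σ c = a ↔ c = a := fun c => ⟨fun e => σ.injective (e.trans a1.symm), fun e => e ▸ a1⟩
  have cb : ∀ c, σ c = b ↔ c = b := fun c => ⟨fun e => σ.injective (e.trans b1.symm), fun e => e ▸ b1⟩
  have e : (Finset.univ.filter fun a => σ a ≠ a ∨ S a = true) = insert a (insert b (Finset.univ.filter fun c =>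
      σ c ≠ c ∨ xor (S c) (xor (decide (σ c = a)) (decide (σ c = b))) = true)) := by
    ext c
    by_cases c1 : c = a
    · simp [c1, a2]
    by_cases c2 : c = b
    · simp [c2, b2]
    simp [c1, c2, ca, cb]
  rw [hw, w_nf h5, e, Finset.card_insert_of_notMem (by simp [hab, a1, a2]),
    Finset.card_insert_of_notMem (by simp [hab.symm, b1, b2])]
  ring

theorem TM.exD (h : TM T) {t : Perm (Pt ι)} (ht : t ∈ T) (t2 : t * t = 1) :
    ∃ a b : Pr ι, a ≠ b ∧ t * tt a b = tt a b * t := by
  obtain ⟨σ, S, h1, -⟩ := TFA.nf h ht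
  have h3 := sq_nf h1 t2
  have hc := TFA.conj_tt (t := t) (σ := σ) fun a e => by rw [h1]
  by_cases hσ : ∀ a, σ a = a
  · obtain ⟨a, b, hab⟩ := exists_pair_ne (Pr ι)
    exact ⟨a, b, hab, mul_inv_eq_iff_eq_mul.1 (by rw [hc, hσ, hσ])⟩
  · push Not at hσ
    obtain ⟨a, ha⟩ := hσ
    exact ⟨a, σ a, ha.symm, mul_inv_eq_iff_eq_mul.1 (by rw [hc, (h3 a).1, tt_symm])⟩

/-- An element preserving every block is a letter word. -/
theorem TM.mem_J0 (h : TM T) {t : Perm (Pt ι)} (ht : t ∈ T) (hb : ∀ q, blk (t q).1 = blk q.1) : t ∈ J0 ι := by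
  obtain ⟨σ, S, h1, h0, -⟩ := TFA.nf h ht
  have h2 : ∀ j c, blk (σ (some (j, c))) = some j := fun j c => by simpa [h1] using hb (some (j, c), false)
  choose κ hκ using fun j c => blk_eq (h2 j c)
  have e : ee (fun j => (κ j false, false)) * t = tau S := by
    ext ⟨_ | ⟨j, c⟩, x⟩ : 1
    · rw [Perm.mul_apply, h1, h0, ee_none, tau_apply]
    rw [Perm.mul_apply, h1, hκ, ee_apply, tau_apply]
    cases c
    · simp
    · have a2 : κ j true ≠ κ j false := fun e => by
        have := σ.injective (show σ (some (j, true)) = σ (some (j, false)) by rw [hκ, hκ, e])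
        simp at this
      revert a2
      cases κ j true <;> cases κ j false <;> simp
  have hE : ee (fun j => (κ j false, false)) ∈ J0 ι := E0_le_J0 ⟨_, rfl⟩
  have h4 : 4 ∣ w (tau S) := Kon.ThmB.four_dvd (y := ⟨tau S, h.alt (e ▸ mul_mem (h.J hE) ht)⟩) (Subtype.ext (tau_sq S))
  rw [w_tau] at h4
  obtain ⟨k, hk⟩ := h4
  have h5 := tau_mem k (Finset.univ.filter fun a => S a = true) (by omega)
  rw [show (fun a => decide (a ∈ Finset.univ.filter fun a => S a = true)) = S by ext a; simp, ← e] at h5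
  exact (mul_mem_cancel_left hE).1 h5

end Cfsg.Agent.AQ
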