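import Mathlib
import Cfsg.Agent.AQ.Kit
import Cfsg.Agent.AP.TFC

/-! The points outside one block; centralisers in the model. -/

set_option autoImplicit false
set_option linter.unusedSectionVars false
open Subgroup Equiv
open Cfsg.Agent.Inv.Fz

namespace Cfsg.Agent.AQ
open Cfsg.Agent.AP (w Y odd_Y cj_Y cj_Y_le via_via via_swap via_mul via_inj w_via via_mem_alt four_dvd_w conj_of_w)

open Cfsg.Agent.AP.TFB in
/-- The core of the centraliser of an even involution is trivial if it fixes four points. -/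
theorem odd_eq_bot' {α : Type*} [Fintype α] [DecidableEq α] {y : Perm α} (h4 : w y + 4 ≤ Fintype.card α)
    (hy : y ∈ alternatingGroup α) (y2 : y * y = 1) {Z : Subgroup (Perm α)} (hZ : Odd (Nat.card Z))
    (hc : ∀ z ∈ Z, z * y = y * z)
    (hn : ∀ g ∈ alternatingGroup α, g * y = y * g → g ∈ normalizer (Z : Set (Perm α))) : Z = ⊥ := by
  have yy : ∀ a, y (y a) = a := fun a => by rw [← Perm.mul_apply, y2, Perm.one_apply]
  have pw : ∀ z ∈ Z, z ^ Nat.card Z = 1 := fun z hz => congrArg Subtype.val (pow_card_eq_one' (x := (⟨z, hz⟩ : Z)))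
  have fx : ∀ z ∈ Z, ∀ p, z (z p) = p → z p = p := fun z hz p => fix_of_odd hZ (pw z hz)
  have zy : ∀ z ∈ Z, ∀ p, z (y p) = y (z p) := fun z hz p => congrArg (· p) (hc z hz)
  have key : ∀ z ∈ Z, ∀ g ∈ alternatingGroup α, g * y = y * g → g * g = 1 → Commute (z * g * z⁻¹) g →
      z * g * z⁻¹ = g := fun z hz g hg gy g2 c => by
    have m : z * g * z⁻¹ * g ∈ Z := by
      have := mul_mem hz ((mem_normalizer_iff.1 (hn g hg gy) _).1 (inv_mem hz))
      rwa [inv_eq_of_mul_eq_one_right g2, ← mul_assoc, ← mul_assoc] at this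
    have s : z * g * z⁻¹ * g * (z * g * z⁻¹ * g) = 1 := by
      rw [c.symm.mul_mul_mul_comm, g2, show z * g * z⁻¹ * (z * g * z⁻¹) = z * (g * g) * z⁻¹ by group, g2]
      group
    rw [← mul_left_inj g, g2]
    exact Equiv.ext fun p => fx _ m p (congrArg (· p) s)
  obtain ⟨n, hw⟩ := four_dvd_w hy y2
  have mv : ∀ z ∈ Z, ∀ p, y p ≠ p → z p = p := by
    have st : ∀ z ∈ Z, ∀ p r, y p ≠ p → y r ≠ r → r ≠ p → r ≠ y p → z p = p ∨ z p = y p ∨ z p = r ∨ z p = y r :=
      fun z hz p r hp hr a b => by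
        have c : y r ≠ p := fun c => b (by rw [← c, yy])
        have e := key z hz (swap p (y p) * swap r (y r)) (Perm.mem_alternatingGroup.2 (by
          rw [map_mul, Perm.sign_swap hp.symm, Perm.sign_swap hr.symm]; rfl))
          (Commute.mul_left (swap_comm' y2 p) (swap_comm' y2 r))
          (by rw [(swaps_comm y2 p r).symm.mul_mul_mul_comm, swap_mul_self, swap_mul_self, mul_one]) (by
            rw [show z * (swap p (y p) * swap r (y r)) * z⁻¹ = z * swap p (y p) * z⁻¹ * (z * swap r (y r) * z⁻¹) by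
              group, ← swap_apply_apply, ← swap_apply_apply, zy z hz, zy z hz]
            exact ((swaps_comm y2 _ _).mul_right (swaps_comm y2 _ _)).mul_left
              ((swaps_comm y2 _ _).mul_right (swaps_comm y2 _ _)))
        by_contra! k
        have := congrArg (· (z p)) e
        simp only [Perm.mul_apply, Perm.coe_inv, symm_apply_apply, swap_apply_of_ne_of_ne a.symm c.symm, swap_apply_left,
          swap_apply_of_ne_of_ne k.2.2.1 k.2.2.2, swap_apply_of_ne_of_ne k.1 k.2.1] at this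
        exact hp (z.injective this)
    intro z hz p hp
    obtain ⟨r, hr, k⟩ : ∃ r ∈ y.support, r ∉ ({p, y p} : Finset α) := by
      refine Finset.exists_mem_notMem_of_card_lt_card (Finset.card_le_two.trans_lt ?_)
      have := Finset.card_pos.2 ⟨p, Perm.mem_support.2 hp⟩
      rw [w] at hw
      omega
    rw [Perm.mem_support] at hr
    simp only [Finset.mem_insert, Finset.mem_singleton, not_or] at k
    have c : p ≠ y r := fun c => k.2 (by rw [c, yy])
    have two : ∀ u ∈ Z, u p = p ∨ u p = y p → u p = p := fun u hu e =>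
      e.elim id fun e => fx u hu p (by rw [e, zy u hu, e, yy])
    refine fx z hz p (two (z * z) (mul_mem hz hz) ?_)
    rw [Perm.mul_apply]
    rcases st z hz p r hp hr k.1 k.2 with e | e | e | e
    · rw [e, e]; exact Or.inl rfl
    · rw [e, zy z hz, e, yy]; exact Or.inl rfl
    all_goals rcases st z hz r p hr hp (Ne.symm k.1) c with f | f | f | f
    · exact absurd (z.injective (f.trans e.symm)) k.1
    · exact absurd (z.injective (by rw [zy z hz, f, yy, e])) c
    · exact Or.inl (by rw [e, f])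
    · exact Or.inr (by rw [e, f])
    · exact absurd (z.injective (by rw [zy z hz, f, e])) c
    · exact absurd (z.injective (f.trans e.symm)) k.1
    · exact Or.inr (by rw [e, zy z hz, f])
    · exact Or.inl (by rw [e, zy z hz, f, yy])
  rw [eq_bot_iff]
  intro z hz
  by_contra z1
  obtain ⟨p, hp⟩ : ∃ p, z p ≠ p := by
    by_contra! c
    exact z1 (Equiv.ext c)
  have fz : ∀ a, y (z a) = z a ↔ y a = a := fun a => by rw [← zy z hz, z.injective.eq_iff]
  have yp : y p = p := by
    by_contra c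
    exact hp (mv z hz p c)
  have p2 : z (z p) ≠ p := fun c => hp (fx z hz p c)
  have p3 : z (z p) ≠ z p := z.injective.ne hp
  have cF : Fintype.card {a // y a = a} + w y = Fintype.card α := by
    rw [Fintype.card_subtype, w, Perm.support, Finset.card_filter_add_card_filter_not, Finset.card_univ]
  have c3 : 3 ≤ Fintype.card {a // y a = a} := by
    rw [Fintype.card_subtype, ← Finset.card_eq_three.2 ⟨p, z p, z (z p), hp.symm, p2.symm, p3.symm, rfl⟩]
    refine Finset.card_le_card fun a ha => ?_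
    simp only [Finset.mem_insert, Finset.mem_singleton] at ha
    rcases ha with rfl | rfl | rfl <;> simp [fz, yp]
  obtain ⟨s, hs, k⟩ : ∃ s ∈ Finset.univ.filter fun a => y a = a, s ∉ ({p, z p, z (z p)} : Finset α) := by
    refine Finset.exists_mem_notMem_of_card_lt_card (Finset.card_le_three.trans_lt ?_)
    rw [← Fintype.card_subtype]
    omega
  simp only [Finset.mem_insert, Finset.mem_singleton, not_or, Finset.mem_filter, Finset.mem_univ, true_and] at k hs
  obtain ⟨k1, k2, k3⟩ := k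
  have sw : ∀ a b, y a = a → y b = b → swap a b * y = y * swap a b := fun a b ha hb => by
    rw [eq_comm, ← mul_inv_eq_iff_eq_mul, ← swap_apply_apply, ha, hb]
  have dj : ∀ a b c d : α, c ≠ a → c ≠ b → d ≠ a → d ≠ b → Commute (swap a b) (swap c d) := fun a b c d h1 h2 h3 h4 => by
    rw [Commute, SemiconjBy, ← mul_inv_eq_iff_eq_mul, ← swap_apply_apply, swap_apply_of_ne_of_ne h1 h2,
      swap_apply_of_ne_of_ne h3 h4]
  have gA : swap p (z p) * swap (z (z p)) s ∈ alternatingGroup α := Perm.mem_alternatingGroup.2 (by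
    rw [map_mul, Perm.sign_swap hp.symm, Perm.sign_swap (Ne.symm k3)]; rfl)
  have g2 : swap p (z p) * swap (z (z p)) s * (swap p (z p) * swap (z (z p)) s) = 1 := by
    rw [(dj _ _ _ _ p2 p3 k1 k2).symm.mul_mul_mul_comm, swap_mul_self, swap_mul_self, mul_one]
  have gp : (swap p (z p) * swap (z (z p)) s) p = z p := by
    rw [Perm.mul_apply, swap_apply_of_ne_of_ne p2.symm (Ne.symm k1), swap_apply_left]
  by_cases c4 : Fintype.card {a // y a = a} = 4
  · have all : ∀ a, y a = a → a = p ∨ a = z p ∨ a = z (z p) ∨ a = s := fun a ha => by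
      have : ({p, z p, z (z p), s} : Finset α) = Finset.univ.filter fun a => y a = a :=
        Finset.eq_of_subset_of_card_le (fun a ha => by
          simp only [Finset.mem_insert, Finset.mem_singleton] at ha
          rcases ha with rfl | rfl | rfl | rfl <;> simp [fz, yp, hs]) (by
          rw [← Fintype.card_subtype, c4, Finset.card_eq_four.2 ⟨p, z p, z (z p), s, hp.symm, p2.symm, Ne.symm k1,
            p3.symm, Ne.symm k2, Ne.symm k3, rfl⟩])
      simpa using (Finset.ext_iff.1 this a).2 (by simpa using ha)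
    have e1 : z (z (z p)) = p ∧ z s = s := by
      rcases all _ ((fz _).2 ((fz _).2 ((fz _).2 yp))) with a | a | a | a <;>
        rcases all _ ((fz _).2 hs) with b | b | b | b
      all_goals first | exact ⟨a, b⟩ | exact absurd (z.injective b) k1 | exact absurd (z.injective b) k2 |
        exact absurd (z.injective a) p2 | exact absurd (z.injective a) p3 |
        exact absurd (z.injective (b.trans a.symm)) k3 | skip
      exact absurd (fx (z * z) (mul_mem hz hz) p (by simp only [Perm.mul_apply]; rw [a, b])) p2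
    have e2 : z * (swap p (z p) * swap (z (z p)) s) * z⁻¹ = swap (z p) (z (z p)) * swap p s := by
      rw [show z * (swap p (z p) * swap (z (z p)) s) * z⁻¹ = z * swap p (z p) * z⁻¹ * (z * swap (z (z p)) s * z⁻¹) by
        group, ← swap_apply_apply, ← swap_apply_apply, e1.1, e1.2]
    have e3 := key z hz _ gA (Commute.mul_left (sw _ _ yp ((fz _).2 yp)) (sw _ _ ((fz _).2 ((fz _).2 yp)) hs)) g2 (by
      rw [e2, Commute, SemiconjBy, eq_comm, ← mul_inv_eq_iff_eq_mul, show ∀ g a b : Perm α, g * (a * b) * g⁻¹ =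
        g * a * g⁻¹ * (g * b * g⁻¹) by intros; group, ← swap_apply_apply, ← swap_apply_apply, gp]
      simp only [Perm.mul_apply, swap_apply_left, swap_apply_right, swap_apply_of_ne_of_ne p3.symm (Ne.symm k2),
        swap_apply_of_ne_of_ne k1 k2, swap_apply_of_ne_of_ne p2 p3]
      exact (dj _ _ _ _ hp (Ne.symm k2) p2 (Ne.symm k3)).eq)
    have := congrArg (· p) (e2.symm.trans e3)
    simp only [gp] at this
    rw [Perm.mul_apply, swap_apply_left, swap_apply_of_ne_of_ne k2 k3] at this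
    exact k2 this
  let e : {a // y a = a} ↪ α := Function.Embedding.subtype _
  have nm : ∀ a, y a ≠ a → a ∉ Set.range e := fun a h ⟨b, q⟩ => h (q ▸ b.2)
  let N : Subgroup (alternatingGroup {a // y a = a}) :=
    Z.comap ((Perm.viaEmbeddingHom e).comp (alternatingGroup _).subtype)
  have : N.Normal := ⟨fun u hu g => by
    change (Perm.viaEmbeddingHom e) (g.1 * u.1 * g.1⁻¹) ∈ Z
    rw [map_mul, map_mul, map_inv]
    refine (mem_normalizer_iff.1 (hn _ ((via_mem_alt e).2 g.2) (Equiv.ext fun a => ?_)) _).1 hu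
    simp only [Perm.mul_apply]
    by_cases h : y a = a
    · rw [h]
      exact (Perm.viaEmbedding_apply g.1 e ⟨a, h⟩).symm ▸ (g.1 ⟨a, h⟩).2.symm
    · rw [Perm.viaEmbedding_apply_of_notMem _ _ _ (nm a h),
        Perm.viaEmbedding_apply_of_notMem _ _ _ (nm _ (y.injective.ne h))]⟩
  have res : ∀ u : Perm α, (h : ∀ a, y (u a) = u a ↔ y a = a) → (∀ a, y a ≠ a → u a = a) →
      (u.subtypePerm h).viaEmbedding e = u := fun u h k => Equiv.ext fun a => by
    by_cases q : y a = a
    · exact Perm.viaEmbedding_apply _ e ⟨a, q⟩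
    · rw [Perm.viaEmbedding_apply_of_notMem _ _ _ (nm a q), k a q]
  rcases alternatingGroup.normal_subgroup_eq_bot_or_eq_top (N := N) (by rw [Nat.card_eq_fintype_card]; omega) with q | q
  · have zA : z ∈ alternatingGroup α := by
      have := congrArg Perm.sign (pw z hz)
      rw [map_pow, map_one] at this
      refine Perm.mem_alternatingGroup.2 ((Int.units_eq_one_or _).resolve_right fun c => ?_)
      rw [c, hZ.neg_one_pow] at this
      exact absurd this (by decide)
    have r := res z fz (mv z hz)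
    have m : (⟨z.subtypePerm fz, (via_mem_alt e).1 (r.symm ▸ zA)⟩ : alternatingGroup _) ∈ N := by
      change (z.subtypePerm fz).viaEmbedding e ∈ Z
      rwa [r]
    rw [q, mem_bot, Subtype.ext_iff] at m
    exact hp (congrArg Subtype.val (congrArg (· ⟨p, yp⟩) m))
  · have r : (swap ⟨p, yp⟩ ⟨z p, (fz _).2 yp⟩ * swap ⟨z (z p), (fz _).2 ((fz _).2 yp)⟩ ⟨s, hs⟩ :
        Perm {a // y a = a}).viaEmbedding e =
        swap p (z p) * swap (z (z p)) s := by rw [via_mul, via_swap, via_swap]; rfl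
    have m : (⟨_, (via_mem_alt e).1 (r.symm ▸ gA)⟩ : alternatingGroup _) ∈ N := q ▸ mem_top _
    have m' : swap p (z p) * swap (z (z p)) s ∈ Z := r ▸ m
    exact hp (gp ▸ fx _ m' p (congrArg (· p) g2))

variable {ι : Type}

theorem TFC.up_up (i : ι) (y : Perm (Pt {j // j ≠ i})) (a : Pr {j // j ≠ i}) (e : Bool) :
    y.viaEmbedding (up i) (upP i a, e) = up i (y (a, e)) :=
  Perm.viaEmbedding_apply y (up i) (a, e)

theorem TFC.up_eq (i : ι) (y : Perm (Pt {j // j ≠ i})) (c e : Bool) :
    y.viaEmbedding (up i) (some (i, c), e) = (some (i, c), e) :=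
  Perm.viaEmbedding_apply_of_notMem _ _ _ fun ⟨q, h⟩ => blk_upP_ne i q.1 (congrArg (fun x : Pt ι => blk x.1) h)

theorem TFC.cases (i : ι) (a : Pr ι) : (∃ c, a = some (i, c)) ∨ ∃ a', upP i a' = a := by
  by_cases h : blk a = some i
  · rcases a with _ | ⟨j, c⟩
    · simp at h
    · exact .inl ⟨c, by rw [show j = i from Option.some.inj h]⟩
  · exact .inr (exists_upP h)

open TFC
open Cfsg.Agent.AP.TFC (exists_via)

variable [DecidableEq ι]

theorem up_tau (i : ι) (S : Pr {j // j ≠ i} → Bool) (S' : Pr ι → Bool) (h : ∀ a, S' (upP i a) = S a)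
    (h' : ∀ c, S' (some (i, c)) = false) : (tau S).viaEmbedding (up i) = tau S' := by
  ext ⟨a, e⟩ : 1
  rcases cases i a with ⟨c, rfl⟩ | ⟨a, rfl⟩
  · simp [up_eq, h']
  · simp [up_up, h]

theorem up_ee (i : ι) (f : {j // j ≠ i} → Bool × Bool) :
    (ee f).viaEmbedding (up i) = ee fun j => if h : j = i then (false, false) else f ⟨j, h⟩ := by
  ext ⟨a, e⟩ : 1
  rcases cases i a with ⟨c, rfl⟩ | ⟨_ | ⟨j, c⟩, rfl⟩
  · simp [up_eq]
  · rw [up_up]; rfl
  · rw [up_up]; simp [j.2]

theorem up_t1 (i : ι) (a : Pr {j // j ≠ i}) : (t1 a).viaEmbedding (up i) = t1 (upP i a) := by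
  rw [t1_eq_swap, t1_eq_swap, via_swap]; rfl

theorem up_tt (i : ι) (a b : Pr {j // j ≠ i}) : (tt a b).viaEmbedding (up i) = tt (upP i a) (upP i b) := by
  rw [tt, via_mul, up_t1, up_t1, tt]

theorem up_sg (i : ι) (j : {j // j ≠ i}) (v : Bool × Bool) : (sg j v).viaEmbedding (up i) = sg j.1 v := by
  rw [sg, up_ee, sg]
  congr 1
  funext l
  by_cases h : l = i
  · rw [dif_pos h, if_neg fun q => j.2 (q.symm.trans h)]
  · rw [dif_neg h]
    simp only [Subtype.ext_iff]

theorem up_mem_J0 (i : ι) {y : Perm (Pt {j // j ≠ i})} (hy : y ∈ J0 {j // j ≠ i}) :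
    y.viaEmbedding (up i) ∈ J0 ι := by
  have : J0 {j // j ≠ i} ≤ (J0 ι).comap (Perm.viaEmbeddingHom (up i)) := (closure_le _).2 (by
    rintro _ (⟨a, b, rfl⟩ | ⟨j, rfl⟩)
    · change (tt a b).viaEmbedding (up i) ∈ J0 ι
      rw [up_tt]; exact tt_mem_J0 _ _
    · change (sg j _).viaEmbedding (up i) ∈ J0 ι
      rw [up_sg]; exact mx_mem_J0 _)
  exact this hy

theorem TFC.disj (i : ι) (y : Perm (Pt {j // j ≠ i})) {v : Perm (Pt ι)} (hv : v ∈ V0 i) :
    v.Disjoint (y.viaEmbedding (up i)) := by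
  obtain ⟨u, rfl⟩ := hv
  rintro ⟨_ | ⟨j, c⟩, e⟩
  · exact Or.inl rfl
  by_cases h : j = i
  · subst h; exact Or.inr (up_eq _ _ _ _)
  · exact Or.inl (by simp [sg, h])

theorem up_comm (i : ι) (y : Perm (Pt {j // j ≠ i})) {v : Perm (Pt ι)} (hv : v ∈ V0 i) :
    v * y.viaEmbedding (up i) = y.viaEmbedding (up i) * v := (disj i y hv).commute

theorem eq_one_of_mul_up (i : ι) {y : Perm (Pt {j // j ≠ i})} {v : Perm (Pt ι)} (hv : v ∈ V0 i)
    (h : v * y.viaEmbedding (up i) = 1) : v = 1 ∧ y = 1 := by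
  obtain ⟨a, b⟩ := (disj i y hv).mul_eq_one_iff.1 h
  exact ⟨a, via_inj (up i) (b.trans (Perm.viaEmbeddingHom (up i)).map_one.symm)⟩

omit [DecidableEq ι] in
theorem TFC.ee_tau (f : ι → Bool × Bool) (S : Pr ι → Bool) :
    ee f * tau S = tau (fun a => S (mv f a)) * ee f := by
  ext ⟨_ | ⟨j, c⟩, e⟩ : 1
  · rfl
  simp only [Perm.mul_apply, tau_apply, ee_apply, Prod.mk.injEq, true_and, mv_some]
  cases c <;> cases e <;> cases (f j).1 <;> cases (f j).2 <;> simp

variable [Fintype ι]

theorem J0_le_alt : J0 ι ≤ alternatingGroup (Pt ι) := (closure_le _).2 (by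
  rintro _ (⟨a, b, rfl⟩ | ⟨j, rfl⟩) <;> refine Perm.mem_alternatingGroup.2 ?_
  · rw [tt, map_mul, t1_eq_swap, t1_eq_swap, Perm.sign_swap (by simp), Perm.sign_swap (by simp)]; rfl
  · rw [mx_eq_swap, map_mul, Perm.sign_swap (by simp), Perm.sign_swap (by simp)]; rfl)

theorem isPGroup_J0 : IsPGroup 2 (J0 ι) := by
  rintro ⟨y, hy⟩
  have : ∃ S f, y = tau S * ee f := by
    induction hy using closure_induction with
    | mem x hx =>
      rcases hx with ⟨a, b, rfl⟩ | ⟨j, rfl⟩
      · exact ⟨_, _, by rw [ee_zero, mul_one, tt_eq]⟩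
      · exact ⟨_, _, by rw [tau_false, one_mul, mx, sg]⟩
    | one => exact ⟨_, _, by rw [tau_false, ee_zero, mul_one]⟩
    | mul x y _ _ a b =>
      obtain ⟨S, f, rfl⟩ := a
      obtain ⟨S', f', rfl⟩ := b
      exact ⟨_, _, by rw [mul_assoc, ← mul_assoc (ee f), ee_tau, mul_assoc, ee_mul, ← mul_assoc, tau_mul]⟩
    | inv x _ a =>
      obtain ⟨S, f, rfl⟩ := a
      exact ⟨_, _, by rw [mul_inv_rev, inv_eq_of_mul_eq_one_right (tau_sq S), inv_eq_of_mul_eq_one_right (ee_sq f),
        ee_tau]⟩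
  obtain ⟨S, f, rfl⟩ := this
  refine ⟨2, Subtype.ext ?_⟩
  change (tau S * ee f) ^ (2 * 2) = 1
  rw [pow_mul, pow_two (tau S * ee f), mul_assoc, ← mul_assoc (ee f), ee_tau, mul_assoc, ee_sq, mul_one, tau_mul,
    pow_two, tau_sq]

theorem w_mul_up (i : ι) (y : Perm (Pt {j // j ≠ i})) {v : Perm (Pt ι)} (hv : v ∈ V0 i) (h1 : v ≠ 1) :
    w (v * y.viaEmbedding (up i)) = w y + 4 := by
  have := (disj i y hv).card_support_mul
  obtain ⟨u, rfl⟩ := hv
  rw [← w_via (up i) y, ← w_sg i (v := u) (fun e => h1 (by rw [e, sg_zero])), add_comm]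
  exact this

theorem cen_split {i : ι} {y : Perm (Pt ι)} (hy : y ∈ alternatingGroup (Pt ι)) (hx : y * mx i = mx i * y)
    (hd : y * md i = md i * y) :
    ∃ v ∈ V0 i, ∃ y' ∈ alternatingGroup (Pt {j // j ≠ i}), y = v * y'.viaEmbedding (up i) := by
  obtain ⟨⟨a, e⟩, h⟩ : ∃ q, y (some (i, false), false) = q := ⟨_, rfl⟩
  have a0 : md i (some (i, false), false) = (some (i, false), true) := by simp [md, sg]
  have a1 : mx i (some (i, false), false) = (some (i, true), false) := by simp [mx, sg]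
  have a2 : mx i (some (i, false), true) = (some (i, true), true) := by simp [mx, sg]
  obtain ⟨c, rfl⟩ : ∃ c, a = some (i, c) := by
    refine (cases i a).resolve_right ?_
    rintro ⟨a, rfl⟩
    have := congrArg (· (some (i, false), false)) hd
    simp only [Perm.mul_apply, a0, h] at this
    rw [show md i (upP i a, e) = (upP i a, e) by rcases a with _ | ⟨j, c⟩; exacts [rfl, by simp [md, sg, j.2]],
      ← h] at this
    simpa using y.injective this
  rename' i => j
  obtain ⟨u, hu⟩ : ∃ u, sg j (c, e) * y = u := ⟨_, rfl⟩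
  have c1 : u * mx j = mx j * u := hu ▸ Commute.mul_left (ee_comm _ _) hx
  have c2 : u * md j = md j * u := hu ▸ Commute.mul_left (ee_comm _ _) hd
  have f0 : u (some (j, false), false) = (some (j, false), false) := by rw [← hu, Perm.mul_apply, h]; simp [sg]
  have f1 : u (some (j, false), true) = (some (j, false), true) := by
    simpa only [Perm.mul_apply, a0, f0] using congrArg (· (some (j, false), false)) c2
  have f2 : u (some (j, true), false) = (some (j, true), false) := by
    simpa only [Perm.mul_apply, a1, f0] using congrArg (· (some (j, false), false)) c1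
  have f3 : u (some (j, true), true) = (some (j, true), true) := by
    simpa only [Perm.mul_apply, a2, f1] using congrArg (· (some (j, false), true)) c1
  obtain ⟨y', hy'⟩ := exists_via (up j) (u := u) (by
    rintro ⟨a, e⟩ k
    rcases cases j a with ⟨c, rfl⟩ | ⟨a, rfl⟩
    · cases c <;> cases e <;> assumption
    · exact absurd ⟨(a, e), rfl⟩ k)
  refine ⟨sg j (c, e), ⟨_, rfl⟩, y', (via_mem_alt (up j)).1 ?_, by rw [hy', ← hu, ← mul_assoc, sg_sq, one_mul]⟩
  rw [hy', ← hu]
  exact mul_mem (J0_le_alt (V0_le_J0 j ⟨_, rfl⟩)) hy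

theorem sylA_up {i : ι} {T : Subgroup (Perm (Pt ι))} (hV : V0 i ≤ T)
    (h : IsSylIn 2 (T ⊓ centralizer (V0 i : Set (Perm (Pt ι))))
      (alternatingGroup (Pt ι) ⊓ centralizer (V0 i : Set (Perm (Pt ι))))) :
    IsSylIn 2 (T.comap (Perm.viaEmbeddingHom (up i))) (alternatingGroup (Pt {j // j ≠ i})) := by
  have c : ∀ y : Perm (Pt {j // j ≠ i}), Perm.viaEmbeddingHom (up i) y ∈ centralizer (V0 i : Set (Perm (Pt ι))) :=
    fun y v hv => up_comm i y hv
  have vc : V0 i ≤ centralizer (V0 i : Set (Perm (Pt ι))) := by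
    rintro _ ⟨a, rfl⟩ _ ⟨b, rfl⟩
    exact ee_comm _ _
  refine ⟨fun y hy => (via_mem_alt (up i)).1 (h.le ⟨hy, c y⟩).1,
    (h.isPGroup.comap_of_injective _ (Perm.viaEmbeddingHom_injective (up i))).to_le fun y hy => ⟨hy, c y⟩,
    fun Q hQ hA hT => le_antisymm (fun y hy => ?_) hT⟩
  have m : Q.map (Perm.viaEmbeddingHom (up i)) ≤ centralizer (V0 i : Set (Perm (Pt ι))) := by
    rintro _ ⟨y, -, rfl⟩
    exact c y
  have e := h.eq_of_le (Q := V0 i ⊔ Q.map (Perm.viaEmbeddingHom (up i)))
    ((h.isPGroup.to_le (le_inf hV vc)).to_sup_of_normal_left' (hQ.map _) (m.trans (centralizer_le_normalizer _)))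
    (sup_le (le_inf ((V0_le_J0 i).trans J0_le_alt) vc) (le_inf (by
      rintro _ ⟨y, hy, rfl⟩
      exact (via_mem_alt (up i)).2 (hA hy)) m)) (fun y hy => by
      obtain ⟨v, hv, y', -, rfl⟩ := cen_split (i := i) (h.le hy).1 (hy.2 _ ⟨_, rfl⟩).symm (hy.2 _ ⟨_, rfl⟩).symm
      exact mul_mem (mem_sup_left hv) (mem_sup_right ⟨y', hT ((mul_mem_cancel_left (hV hv)).1 hy.1), rfl⟩))
  exact (e.le (mem_sup_right ⟨y, hy, rfl⟩)).1

end Cfsg.Agent.AQ
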