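import Mathlib
import Cfsg.Agent.AQ.TFA
import Cfsg.Agent.Kon.ThmB

/-! Weak closure of `E0` in the model. -/

set_option autoImplicit false
set_option linter.unusedSectionVars false
open Subgroup Equiv
open Cfsg.Agent.Inv.Fz

namespace Cfsg.Agent.AQ
open Cfsg.Agent.AP (w Y odd_Y cj_Y cj_Y_le via_via via_swap via_mul via_inj w_via via_mem_alt four_dvd_w conj_of_w)

variable {ι : Type} [Fintype ι] [DecidableEq ι]

namespace TFD

theorem eq_one_of_w {x : Perm (Pt ι)} (h : w x = 0) : x = 1 := Perm.support_eq_empty_iff.1 (Finset.card_eq_zero.1 h)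

theorem w_one : w (1 : Perm (Pt ι)) = 0 := by simp [w]

theorem w_conj (g x : Perm (Pt ι)) : w (g * x * g⁻¹) = w x := Perm.card_support_conj

theorem w_V0 {j : ι} {x : Perm (Pt ι)} (h : x ∈ V0 j) : w x ≤ 4 := by
  obtain ⟨v, rfl⟩ := h
  by_cases hv : v = (false, false)
  · rw [hv, sg_zero, w_one]; omega
  · rw [w_sg j hv]

omit [Fintype ι] in
theorem sg_moves {l : ι} {v : Bool × Bool} (hv : v ≠ (false, false)) {q : Pt ι} (h : blk q.1 = some l) :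
    sg l v q ≠ q := by
  obtain ⟨p, e⟩ := q
  obtain ⟨c, rfl⟩ := TFA.blk_eq h
  obtain ⟨a, b⟩ := v
  revert hv
  cases a <;> cases b <;> cases c <;> cases e <;> simp [sg]

omit [Fintype ι] in
theorem sg_inj (l : ι) {u v : Bool × Bool} (h : sg l u = sg l v) : u = v := by
  simpa using congrFun (ee_inj h) l

omit [Fintype ι] in
theorem blk_of_move {l : ι} {x : Perm (Pt ι)} (hx : x ∈ V0 l) {q : Pt ι} (h : x q ≠ q) : blk q.1 = some l := by
  obtain ⟨v, rfl⟩ := hx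
  by_contra hm
  exact h (TFA.sg_fix v hm)

omit [Fintype ι] in
theorem of_tt_move {a b : Pr ι} {q : Pt ι} (h : tt a b q ≠ q) : q.1 = a ∨ q.1 = b := by
  by_contra hc
  rw [not_or] at hc
  exact h (TFA.tt_fix hc.1 hc.2)

theorem w_disj {x y : Perm (Pt ι)} (hx : w x = 4) (hy : w y = 4) (h : ∀ q, x q ≠ q → y q = q) : w (x * y) = 8 := by
  have := Perm.Disjoint.card_support_mul (f := x) (g := y) fun q => or_iff_not_imp_left.2 (h q)
  change w _ = w _ + w _ at this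
  omega

theorem tt_tt {a b c d : Pr ι} (hab : a ≠ b) (hcd : c ≠ d) (h : w (tt a b * tt c d) = 4) :
    ∃ p q r : Pr ι, p ≠ q ∧ p ≠ r ∧ q ≠ r ∧ tt a b = tt p q ∧ tt c d = tt p r := by
  have k : ∀ {a b c d : Pr ι}, tt a b = tt c d → w (tt a b * tt c d) ≠ 4 := fun e => by rw [e, tt_sq, w_one]; decide
  by_cases h1 : a = c
  · exact ⟨a, b, d, hab, h1 ▸ hcd, fun e => k (by rw [h1, e]) h, rfl, by rw [h1]⟩
  by_cases h2 : a = d
  · exact ⟨a, b, c, hab, h1, fun e => k (by rw [h2, e, tt_symm]) h, rfl, by rw [h2, tt_symm]⟩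
  by_cases h3 : b = c
  · exact ⟨b, a, d, hab.symm, h3 ▸ hcd, h2, tt_symm a b, by rw [h3]⟩
  by_cases h4 : b = d
  · exact ⟨b, a, c, hab.symm, h3, h1, tt_symm a b, by rw [h4, tt_symm]⟩
  rw [w_tt_mul hab h1 h2 h3 h4 hcd] at h
  exact absurd h (by decide)

theorem sg_tt {l : ι} {e : Bool} {a b : Pr ι} (hab : blk a ≠ blk b)
    (hc : sg l (true, e) * tt a b = tt a b * sg l (true, e)) : w (sg l (true, e) * tt a b) = 8 := by
  have k : ∀ {a b : Pr ι}, blk a ≠ blk b → sg l (true, e) * tt a b = tt a b * sg l (true, e) → blk a ≠ some l :=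
    fun {a b} hab hc ha => by
      obtain ⟨c, rfl⟩ := TFA.blk_eq ha
      have n : ∀ c, some (l, c) ≠ b := fun c e => hab (by rw [← e]; rfl)
      have := congrArg (fun x : Perm (Pt ι) => x (some (l, c), false)) hc
      simp only [Perm.mul_apply, TFA.tt_left (n c), sg, ee_apply, if_true] at this
      rw [TFA.tt_fix (by cases c <;> simp) (n _)] at this
      cases e <;> simp at this
  refine w_disj (w_sg l (by simp)) (w_tt fun e => hab (by rw [e])) fun q hq => by_contra fun n => ?_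
  have := blk_of_move ⟨_, rfl⟩ hq
  rcases of_tt_move n with h | h <;> rw [h] at this
  exacts [k hab hc this, k hab.symm (by rwa [tt_symm]) this]

theorem sg_sg {l m : ι} {u v : Bool × Bool} (hu : u ≠ (false, false)) (hv : v ≠ (false, false))
    (h : w (sg l u * sg m v) ≤ 4) : l = m := by
  by_contra n
  rw [w_disj (w_sg l hu) (w_sg m hv) fun q hq => TFA.sg_fix v (by
    rw [blk_of_move ⟨_, rfl⟩ hq]; simpa using n)] at h
  omega

theorem E0_ind {p : Perm (Pt ι) → Prop} (h1 : p 1) (hm : ∀ j, ∀ v ∈ V0 j, ∀ x ∈ E0 ι, p x → p (v * x)) :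
    ∀ x ∈ E0 ι, p x := by
  rintro _ ⟨f, rfl⟩
  have key : ∀ s : Finset ι, p (ee fun j => if j ∈ s then f j else (false, false)) := by
    intro s
    induction s using Finset.induction_on with
    | empty => simpa [ee_zero] using h1
    | insert j s hj ih =>
      have := hm j _ ⟨f j, rfl⟩ _ ⟨_, rfl⟩ ih
      rw [sg, ee_mul] at this
      convert this using 2
      ext l <;> by_cases h : l = j <;> simp [h, hj]
  simpa using key Finset.univ

omit [Fintype ι] in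
theorem tt_conj_V0 (a b : Pr ι) {l : ι} {x : Perm (Pt ι)} (h : x ∈ V0 l) : tt a b * x * (tt a b)⁻¹ ∈ V0 l := by
  obtain ⟨v, rfl⟩ := h
  rw [tt_eq]
  generalize (fun c => xor (decide (c = a)) (decide (c = b))) = S
  rw [sg, tau_conj_ee]
  refine ⟨(v.1, xor v.2 (v.1 && xor (S (some (l, false))) (S (some (l, true))))), ?_⟩
  rw [sg]
  congr 1
  ext m <;> by_cases e : m = l <;> simp [e]

omit [Fintype ι] in
theorem of_tt_E0 {a b : Pr ι} (hab : a ≠ b) (h : tt a b ∈ E0 ι) : ∃ l c, a = some (l, c) ∧ b = some (l, !c) := by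
  obtain ⟨g, e⟩ := h
  have h1 := congrArg (fun x : Perm (Pt ι) => x (a, false)) e
  simp only [TFA.tt_left hab] at h1
  rcases a with _ | ⟨l, c⟩
  · simp at h1
  refine ⟨l, c, rfl, ?_⟩
  have h2 : tt (some (l, c)) b (some (l, !c), false) ≠ (some (l, !c), false) := by
    rw [← e]
    simp only [ee_apply, Prod.mk.injEq, Bool.false_xor, Bool.not_false] at h1
    simp [h1.2]
  exact ((of_tt_move h2).resolve_left (by cases c <;> simp)).symm

omit [Fintype ι] [DecidableEq ι] in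
theorem isPGroup_E0 : IsPGroup 2 (E0 ι) := by
  rintro ⟨_, f, rfl⟩
  exact ⟨1, Subtype.ext (by simpa [pow_two] using ee_sq f)⟩

/-- The exchange of two blocks. -/
def bs (j l : ι) : Perm (Pt ι) :=
  prodCongrLeft fun _ : Bool => optionCongr (prodCongrLeft fun _ : Bool => swap j l)

omit [Fintype ι] in
theorem bs_apply (j l m : ι) (c e : Bool) : bs j l (some (m, c), e) = (some (swap j l m, c), e) := rfl

omit [Fintype ι] in
theorem bs_none (j l : ι) (e : Bool) : bs j l (none, e) = (none, e) := rfl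

omit [Fintype ι] in
theorem bs_sq (j l : ι) : bs j l * bs j l = 1 := by
  ext ⟨_ | ⟨m, c⟩, e⟩ : 1 <;> simp [bs_apply, bs_none]

theorem bs_mem (j l : ι) : bs j l ∈ alternatingGroup (Pt ι) := by
  rw [Perm.mem_alternatingGroup, bs, Perm.sign_prodCongrLeft, Fintype.prod_bool, Int.units_mul_self]

omit [Fintype ι] in
theorem bs_conj (j l : ι) (f : ι → Bool × Bool) : bs j l * ee f * (bs j l)⁻¹ = ee fun m => f (swap j l m) := by
  rw [mul_inv_eq_iff_eq_mul]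
  ext ⟨_ | ⟨m, c⟩, e⟩ : 1 <;> simp [bs_apply, bs_none]

omit [Fintype ι] in
theorem bs_conj_sg (j l m : ι) (v : Bool × Bool) : bs j l * sg m v * (bs j l)⁻¹ = sg (swap j l m) v := by
  rw [sg, bs_conj, sg]
  congr 1
  ext n : 1
  simp only [swap_apply_eq_iff]

variable [Nontrivial ι] {T : Subgroup (Perm (Pt ι))}

/-- The four-groups of `T` all of whose involutions have weight four. -/
theorem dich (h : TM T) {x y : Perm (Pt ι)} (hx : x ∈ T) (hy : y ∈ T) (x2 : x * x = 1) (y2 : y * y = 1)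
    (hc : x * y = y * x) (x4 : w x = 4) (y4 : w y = 4) (h4 : w (x * y) = 4) :
    (∃ l, x ∈ V0 l ∧ y ∈ V0 l) ∨ ∃ a b c : Pr ι, a ≠ b ∧ a ≠ c ∧ b ≠ c ∧ x = tt a b ∧ y = tt a c := by
  have z : ∀ {l : ι} {u : Bool × Bool}, w (sg l u) = 4 → u ≠ (false, false) := fun e n => by
    rw [n, sg_zero, w_one] at e; omega
  have ne : ∀ {a b : Pr ι}, blk a ≠ blk b → a ≠ b := fun n e => n (by rw [e])
  rcases h.wt4 hx x2 x4 with ⟨l, u, rfl⟩ | ⟨a, b, hab, rfl⟩ <;>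
    rcases h.wt4 hy y2 y4 with ⟨m, v, rfl⟩ | ⟨c, d, hcd, rfl⟩
  · exact Or.inl ⟨l, ⟨_, rfl⟩, sg_sg (z x4) (z y4) h4.le ▸ ⟨_, rfl⟩⟩
  · obtain ⟨_ | _, e⟩ := u
    · cases e
      · exact absurd rfl (z x4)
      · rw [show sg l (false, true) = _ from md_eq l] at h4 ⊢
        exact Or.inr (tt_tt (by simp) (ne hcd) h4)
    · rw [sg_tt hcd hc] at h4; omega
  · obtain ⟨_ | _, e⟩ := v
    · cases e
      · exact absurd rfl (z y4)
      · rw [show sg m (false, true) = _ from md_eq m] at h4 ⊢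
        exact Or.inr (tt_tt (ne hab) (by simp) h4)
    · rw [hc, sg_tt hab hc.symm] at h4; omega
  · exact Or.inr (tt_tt (ne hab) (ne hcd) h4)

section

variable {f : Perm (Pt ι) → Perm (Pt ι)} (mul : ∀ x ∈ E0 ι, ∀ y ∈ E0 ι, f (x * y) = f x * f y)
  (hw : ∀ x ∈ E0 ι, w (f x) = w x)
include hw

theorem f_one : f 1 = 1 := eq_one_of_w ((hw 1 (one_mem _)).trans w_one)

include mul

theorem f_sq (j : ι) (v : Bool × Bool) : f (sg j v) * f (sg j v) = 1 := by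
  rw [← mul (sg j v) ⟨_, rfl⟩ (sg j v) ⟨_, rfl⟩, sg_sq, f_one hw]

theorem f_onto {j l : ι} (h : ∀ x ∈ V0 j, f x ∈ V0 l) : ∀ y ∈ V0 l, ∃ x ∈ V0 j, f x = y := by
  have finj : ∀ u v, f (sg j u) = f (sg j v) → u = v := fun u v e => by
    have := hw _ (mul_mem (V0_le_E0 j ⟨u, rfl⟩) (V0_le_E0 j ⟨v, rfl⟩))
    rw [mul (sg j u) ⟨_, rfl⟩ (sg j v) ⟨_, rfl⟩, e, f_sq mul hw, w_one] at this
    exact sg_inj j ((eq_inv_of_mul_eq_one_left (eq_one_of_w this.symm)).trans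
      (eq_inv_of_mul_eq_one_left (sg_sq j v)).symm)
  rintro _ ⟨y, rfl⟩
  choose u hu using fun v => h _ ⟨v, rfl⟩
  obtain ⟨v, rfl⟩ := Finite.surjective_of_injective (f := u) (fun a b e => finj a b (by rw [← hu, ← hu, e])) y
  exact ⟨_, ⟨v, rfl⟩, (hu v).symm⟩

theorem f_dich (h : TM T) (mem : ∀ x ∈ E0 ι, f x ∈ T) (j : ι) : (∃ l, ∀ x ∈ V0 j, f x ∈ V0 l) ∨
    ∃ a b c : Pr ι, a ≠ b ∧ a ≠ c ∧ b ≠ c ∧ f (mx j) = tt a b ∧ f (md j) = tt a c := by
  have m1 : mx j ∈ E0 ι := ⟨_, rfl⟩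
  have m2 : md j ∈ E0 ι := ⟨_, rfl⟩
  refine (dich h (mem _ m1) (mem _ m2) (f_sq mul hw j _) (f_sq mul hw j _)
    (by rw [← mul _ m1 _ m2, ← mul _ m2 _ m1]; exact congrArg f (ee_comm _ _))
    ((hw _ m1).trans (w_sg j (by simp))) ((hw _ m2).trans (w_sg j (by simp)))
    (by rw [← mul _ m1 _ m2, hw _ (mul_mem m1 m2), mx_mul_md, w_sg j (by simp)])).imp_left
      fun ⟨l, h1, h2⟩ => ⟨l, fun x hx => ?_⟩
  rcases mem_V0'.1 hx with rfl | rfl | rfl | rfl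
  exacts [(f_one hw).symm ▸ one_mem _, h1, h2, (mul _ m1 _ m2).symm ▸ mul_mem h1 h2]

theorem f_perm (h : ∀ j, ∃ l, ∀ x ∈ V0 j, f x ∈ V0 l) :
    ∃ σ : Perm ι, ∀ j, (∀ x ∈ V0 j, f x ∈ V0 (σ j)) ∧ ∀ y ∈ V0 (σ j), ∃ x ∈ V0 j, f x = y := by
  choose σ hσ using h
  have hi : Function.Injective σ := fun j j' e => by
    have a := w_V0 (mul_mem (hσ j (md j) ⟨_, rfl⟩) (e ▸ hσ j' (md j') ⟨_, rfl⟩))
    rw [← mul (md j) ⟨_, rfl⟩ (md j') ⟨_, rfl⟩, hw (md j * md j')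
      (mul_mem (V0_le_E0 j ⟨_, rfl⟩) (V0_le_E0 j' ⟨_, rfl⟩))] at a
    exact sg_sg (by simp) (by simp) a
  exact ⟨Equiv.ofBijective σ (Finite.injective_iff_bijective.1 hi), fun j => ⟨hσ j, f_onto mul hw (hσ j)⟩⟩

end

end TFD

open TFD

variable [Nontrivial ι] {T : Subgroup (Perm (Pt ι))}

/-- A weight preserving embedding of `E0` in `T` permutes the `V0 j`, or maps one of them onto the four-group on three pairs. -/
theorem TM.wc (h : TM T) (f : Perm (Pt ι) → Perm (Pt ι)) (mul : ∀ x ∈ E0 ι, ∀ y ∈ E0 ι, f (x * y) = f x * f y)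
    (mem : ∀ x ∈ E0 ι, f x ∈ T) (hw : ∀ x ∈ E0 ι, w (f x) = w x) :
    (∃ σ : Perm ι, ∀ j, (∀ x ∈ V0 j, f x ∈ V0 (σ j)) ∧ ∀ y ∈ V0 (σ j), ∃ x ∈ V0 j, f x = y) ∨
      ∃ j, ∃ t ∈ J0 ι, t * t = 1 ∧ (∀ x ∈ E0 ι, ∃ x' ∈ E0 ι, t * f x * t⁻¹ = f x') ∧
        (∀ v ∈ V0 j, t * f v = f v * t) ∧
        ∃ v0 ∈ V0 j, w (f v0 * t) = 8 ∧ ∀ v ∈ V0 j, v ≠ v0 → w (f v * t) = 4 := by
  by_cases hV : ∀ j, ∃ l, ∀ x ∈ V0 j, f x ∈ V0 l
  · exact Or.inl (f_perm mul hw hV)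
  obtain ⟨j, hj⟩ := not_forall.1 hV
  obtain ⟨a, b, c, hab, hac, hbc, e1, e2⟩ := (f_dich mul hw h mem j).resolve_left hj
  have h1 : 0 < (({a, b, c} : Finset (Pr ι))ᶜ).card := by
    have := Finset.card_le_three (a := a) (b := b) (c := c)
    have := Fintype.one_lt_card (α := ι)
    rw [Finset.card_compl, Fintype.card_option, Fintype.card_prod, Fintype.card_bool]; omega
  obtain ⟨e, he⟩ := Finset.card_pos.1 h1
  simp only [Finset.mem_compl, Finset.mem_insert, Finset.mem_singleton, not_or] at he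
  have m3 : ∀ m : ι, f (mx m * md m) = f (mx m) * f (md m) := fun m => mul (mx m) ⟨_, rfl⟩ (md m) ⟨_, rfl⟩
  have com : ∀ {m : ι} {p q r : Pr ι}, f (mx m) = tt p q → f (md m) = tt p r → ∀ v ∈ V0 m,
      tt a e * f v = f v * tt a e := fun {m p q r} k1 k2 v hv => by
    rcases mem_V0'.1 hv with rfl | rfl | rfl | rfl
    · rw [f_one hw, mul_one, one_mul]
    · rw [k1, tt_comm]
    · rw [k2, tt_comm]
    · rw [m3, k1, k2, tt_symm p q, tt_mul_tt, tt_comm]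
  refine Or.inr ⟨j, tt a e, tt_mem_J0 a e, tt_sq a e, E0_ind ⟨1, one_mem _, by rw [f_one hw]; simp⟩ ?_, com e1 e2,
    mx j * md j, mem_V0'.2 (by simp), ?_, fun v hv n => ?_⟩
  · rintro m v hv x hx ⟨x', hx', k⟩
    obtain ⟨v', hv', k'⟩ : ∃ v' ∈ V0 m, f v' = tt a e * f v * (tt a e)⁻¹ := by
      rcases f_dich mul hw h mem m with ⟨l, hl⟩ | ⟨p, q, r, -, -, -, k1, k2⟩
      · exact f_onto mul hw hl _ (tt_conj_V0 a e (hl v hv))
      · exact ⟨v, hv, (mul_inv_eq_iff_eq_mul.2 (com k1 k2 v hv)).symm⟩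
    refine ⟨v' * x', mul_mem (V0_le_E0 m hv') hx', ?_⟩
    rw [mul _ (V0_le_E0 m hv) _ hx, mul _ (V0_le_E0 m hv') _ hx', ← k, k']; group
  · rw [m3, e1, e2, tt_symm a b, tt_mul_tt,
      w_tt_mul hbc hab.symm (Ne.symm he.2.1) hac.symm (Ne.symm he.2.2) (Ne.symm he.1)]
  · rcases mem_V0'.1 hv with rfl | rfl | rfl | rfl
    · rw [f_one hw, one_mul, w_tt (Ne.symm he.1)]
    · rw [e1, tt_symm a b, tt_mul_tt, w_tt (Ne.symm he.2.1)]
    · rw [e2, tt_symm a c, tt_mul_tt, w_tt (Ne.symm he.2.2)]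
    · exact absurd rfl n

/-- The case of an endomorphism of `E0`. -/
theorem TM.wcE (h : TM T) (f : Perm (Pt ι) → Perm (Pt ι)) (mul : ∀ x ∈ E0 ι, ∀ y ∈ E0 ι, f (x * y) = f x * f y)
    (mem : ∀ x ∈ E0 ι, f x ∈ E0 ι) (hw : ∀ x ∈ E0 ι, w (f x) = w x) :
    ∃ σ : Perm ι, ∀ j, (∀ x ∈ V0 j, f x ∈ V0 (σ j)) ∧ ∀ y ∈ V0 (σ j), ∃ x ∈ V0 j, f x = y := by
  refine f_perm mul hw fun j => (f_dich mul hw h (fun x hx => h.J (E0_le_J0 (mem x hx))) j).resolve_right ?_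
  rintro ⟨a, b, c, hab, hac, hbc, e1, e2⟩
  obtain ⟨l, d, k1, k2⟩ := of_tt_E0 hab (e1 ▸ mem (mx j) ⟨_, rfl⟩)
  obtain ⟨l', d', k3, k4⟩ := of_tt_E0 hac (e2 ▸ mem (md j) ⟨_, rfl⟩)
  obtain ⟨rfl, rfl⟩ := Prod.mk.inj (Option.some.inj (k1.symm.trans k3))
  exact hbc (k2.trans k4.symm)

theorem TFD.wc_conj (h : TM T) (g : Perm (Pt ι)) (hg : ∀ x ∈ E0 ι, g * x * g⁻¹ ∈ T) :
    ∃ σ : Perm ι, ∀ j, (∀ x ∈ V0 j, g * x * g⁻¹ ∈ V0 (σ j)) ∧ ∀ y ∈ V0 (σ j), ∃ x ∈ V0 j, g * x * g⁻¹ = y := by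
  have mul : ∀ x ∈ E0 ι, ∀ y ∈ E0 ι, g * (x * y) * g⁻¹ = g * x * g⁻¹ * (g * y * g⁻¹) := fun x _ y _ => by group
  have hw : ∀ x ∈ E0 ι, w (g * x * g⁻¹) = w x := fun x _ => w_conj g x
  refine f_perm (f := fun x => g * x * g⁻¹) mul hw fun j =>
    (f_dich (f := fun x => g * x * g⁻¹) mul hw h hg j).resolve_right ?_
  rintro ⟨a, b, c, hab, hac, hbc, e1, e2⟩
  have k1 : mx j (g⁻¹ (b, false)) ≠ g⁻¹ (b, false) := fun e => by
    have := congrArg (fun x : Perm (Pt ι) => x (b, false)) e1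
    simp only [Perm.mul_apply, e, tt_symm a b, TFA.tt_left hab.symm] at this
    simp at this
  refine sg_moves (v := (false, true)) (by simp) (blk_of_move ⟨_, rfl⟩ k1) (g.injective ?_)
  have := congrArg (fun x : Perm (Pt ι) => x (b, false)) e2
  simp only [Perm.mul_apply, TFA.tt_fix (q := (b, false)) hab.symm hbc] at this
  exact this.trans (by simp)

theorem TM.conj_mx (h : TM T) {t : Perm (Pt ι)} (ht : t ∈ T) {i : ι} (hc : t * md i = md i * t) :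
    t * mx i * t⁻¹ = mx i ∨ t * mx i * t⁻¹ = mx i * md i := by
  obtain ⟨σ, hσ⟩ := TFD.wc_conj h t fun x hx => mul_mem (mul_mem ht (h.J (E0_le_J0 hx))) (inv_mem ht)
  have e : t * md i * t⁻¹ = md i := mul_inv_eq_iff_eq_mul.2 hc
  have a := (hσ i).1 (md i) ⟨_, rfl⟩
  rw [e] at a
  have b : i = σ i := Option.some.inj (blk_of_move a (sg_moves (q := (some (i, false), false)) (by simp) rfl))
  have c := (hσ i).1 (mx i) ⟨_, rfl⟩
  rw [← b] at c
  rcases mem_V0'.1 c with d | d | d | d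
  · rw [conj_eq_one_iff, ← sg_zero i] at d
    simpa using sg_inj i d
  · exact Or.inl d
  · rw [← e, mul_left_inj, mul_right_inj] at d
    simpa using sg_inj i d
  · exact Or.inr d

theorem TM.exists_swap (h : TM T) (hS : IsSylIn 2 T (alternatingGroup (Pt ι))) :
    ∃ j l : ι, j ≠ l ∧ ∃ t ∈ T, t * t = 1 ∧ ∀ m, ∀ x ∈ V0 m, t * x * t⁻¹ ∈ V0 (swap j l m) := by
  obtain ⟨j, l, hjl⟩ := exists_pair_ne ι
  have h1 : IsPGroup 2 (zpowers (bs j l)) := by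
    rintro ⟨_, n, rfl⟩
    refine ⟨1, Subtype.ext ?_⟩
    simp only [pow_one, SubgroupClass.coe_pow, OneMemClass.coe_one]
    rw [← zpow_natCast, ← zpow_mul, mul_comm, zpow_mul, zpow_natCast, pow_two, bs_sq, one_zpow]
  have h2 : IsPGroup 2 (E0 ι ⊔ zpowers (bs j l) : Subgroup _) :=
    isPGroup_E0.to_sup_of_normal_left' h1 (zpowers_le.2 (mem_normalizer_of_conj_mem (by
      rintro _ ⟨f, rfl⟩
      exact ⟨_, (bs_conj j l f).symm⟩)))
  obtain ⟨g, -, hg⟩ := hS.exists_cj_le h2 (sup_le ((E0_le_J0.trans h.J).trans h.alt) (zpowers_le.2 (bs_mem j l)))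
  rw [cj_le_iff] at hg
  obtain ⟨σ, hσ⟩ := TFD.wc_conj h g fun x hx => hg x (mem_sup_left hx)
  refine ⟨σ j, σ l, fun e => hjl (σ.injective e), _, hg _ (mem_sup_right (mem_zpowers _)), ?_, fun m x hx => ?_⟩
  · rw [show g * bs j l * g⁻¹ * (g * bs j l * g⁻¹) = g * (bs j l * bs j l) * g⁻¹ by group, bs_sq, mul_one,
      mul_inv_cancel]
  · obtain ⟨m, rfl⟩ := σ.surjective m
    obtain ⟨_, ⟨v, rfl⟩, rfl⟩ := (hσ m).2 x hx
    rw [show g * bs j l * g⁻¹ * (g * sg m v * g⁻¹) * (g * bs j l * g⁻¹)⁻¹ =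
      g * (bs j l * sg m v * (bs j l)⁻¹) * g⁻¹ by group, bs_conj_sg, ← σ.injective.map_swap]
    exact (hσ _).1 _ ⟨v, rfl⟩

theorem TM.sylM (h : TM T) (hS : IsSylIn 2 T (alternatingGroup (Pt ι))) {i : ι}
    (hmax : ∀ j : ι, Nat.card (T ⊓ centralizer (V0 j : Set (Perm (Pt ι))) : Subgroup _) ≤
      Nat.card (T ⊓ centralizer (V0 i : Set (Perm (Pt ι))) : Subgroup _)) :
    IsSylIn 2 (T ⊓ centralizer (V0 i : Set (Perm (Pt ι))))
      (alternatingGroup (Pt ι) ⊓ centralizer (V0 i : Set (Perm (Pt ι)))) := by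
  refine isSylIn_of_card_le (inf_le_inf_right _ h.alt) h.two.to_inf_left fun Q hQ hle hTQ => ?_
  obtain ⟨g, -, hg⟩ := hS.exists_cj_le hQ (hle.trans inf_le_left)
  obtain ⟨σ, hσ⟩ := TFD.wc_conj h g fun x hx => cj_le_iff.1 hg x (hTQ ⟨h.J (E0_le_J0 hx), fun y hy => by
    obtain ⟨f, rfl⟩ := hx
    obtain ⟨v, rfl⟩ := hy
    exact ee_comm _ _⟩)
  refine le_trans ?_ (hmax (σ i))
  rw [← card_cj g Q]
  refine card_le_of_le (le_inf hg (cj_le_iff.2 fun q hq y hy => ?_))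
  obtain ⟨x, hx, rfl⟩ := (hσ i).2 y hy
  have := (hle hq).2 x hx
  calc g * x * g⁻¹ * (g * q * g⁻¹) = g * (x * q) * g⁻¹ := by group
    _ = _ := by rw [this]; group

end Cfsg.Agent.AQ
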